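import Mathlib

set_option autoImplicit false

universe u

namespace Cfsg.Agent.Lib.Helper71.EqQD

theorem card_mul_relIndex_aux {G : Type u} [Group G] {H K : Subgroup G} (h : H ≤ K) :
    Nat.card H * H.relIndex K = Nat.card K := by
  have h1 := (H.subgroupOf K).card_mul_index
  rw [Nat.card_congr (Subgroup.subgroupOfEquivOfLe h).toEquiv] at h1
  exact h1

/-- A `p`-subgroup `H` of `G ⧸ N` is the image of a `p`-subgroup `A` of `G` whose order is the
`p`-part of `|H| * |N|`. -/
theorem exists_lift {G : Type u} [Group G] [Finite G] (N : Subgroup G) [N.Normal] (p : ℕ)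
    [Fact p.Prime] (H : Subgroup (G ⧸ N)) (hH : IsPGroup p H) :
    ∃ A : Subgroup G, IsPGroup p A ∧ A.map (QuotientGroup.mk' N) = H ∧
      Nat.card A = p ^ (Nat.card N * Nat.card H).factorization p := by
  have hp : p.Prime := Fact.out
  set π := QuotientGroup.mk' N with hπ
  have hsurj : Function.Surjective π := QuotientGroup.mk'_surjective N
  set X : Subgroup G := H.comap π with hX
  have hNX : N ≤ X := by
    intro n hn
    rw [hX, Subgroup.mem_comap]
    have : π n = 1 := (QuotientGroup.eq_one_iff n).mpr hn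
    rw [this]
    exact H.one_mem
  have hXmap : X.map π = H := Subgroup.map_comap_eq_self_of_surjective hsurj H
  -- relative index of N in X
  have hrel : N.relIndex X = Nat.card H := by
    have h1 : N = (⊥ : Subgroup (G ⧸ N)).comap π := by
      rw [MonoidHom.comap_bot, hπ, QuotientGroup.ker_mk']
    conv_lhs => rw [h1]
    rw [Subgroup.relIndex_comap, hXmap, Subgroup.relIndex_bot_left]
  have hXcard : Nat.card X = Nat.card N * Nat.card H := by
    rw [← hrel]
    exact (card_mul_relIndex_aux hNX).symm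
  obtain ⟨P0⟩ : Nonempty (Sylow p X) := inferInstance
  set A : Subgroup G := (P0 : Subgroup X).map X.subtype with hA
  have hAX : A ≤ X := Subgroup.map_subtype_le _
  have hAp : IsPGroup p A := P0.2.map X.subtype
  have hAc : Nat.card A = p ^ (Nat.card N * Nat.card H).factorization p := by
    rw [hA, Subgroup.card_map_of_injective X.subtype_injective, ← hXcard]
    exact P0.card_eq_multiplicity
  refine ⟨A, hAp, ?_, hAc⟩
  -- A ⊔ N = X
  have hsub : A.subgroupOf X = (P0 : Subgroup X) := by
    rw [hA]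
    ext x
    rw [Subgroup.mem_subgroupOf, Subgroup.mem_map]
    constructor
    · rintro ⟨y, hy, hyx⟩
      have : y = x := Subtype.ext hyx
      rw [← this]
      exact hy
    · intro hx
      exact ⟨x, hx, rfl⟩
  have hArel : ¬ p ∣ A.relIndex X := by
    show ¬ p ∣ (A.subgroupOf X).index
    rw [hsub]
    exact P0.not_dvd_index
  have hd1 : (A ⊔ N).relIndex X ∣ A.relIndex X := Subgroup.relIndex_dvd_of_le_left X le_sup_left
  have hd2 : (A ⊔ N).relIndex X ∣ N.relIndex X := Subgroup.relIndex_dvd_of_le_left X le_sup_right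
  obtain ⟨k, hk⟩ := IsPGroup.iff_card.mp hH
  rw [hrel, hk] at hd2
  obtain ⟨j, -, hj⟩ := (Nat.dvd_prime_pow hp).mp hd2
  have hj0 : j = 0 := by
    by_contra hne
    apply hArel
    have : p ∣ (A ⊔ N).relIndex X := by
      rw [hj]
      exact dvd_pow_self p hne
    exact this.trans hd1
  rw [hj0, pow_zero] at hj
  have hle : X ≤ A ⊔ N := Subgroup.relIndex_eq_one.mp hj
  have heq : A ⊔ N = X := le_antisymm (sup_le hAX hNX) hle
  have hNmap : N.map π = ⊥ := by
    rw [hπ]
    exact QuotientGroup.map_mk'_self N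
  calc A.map π = A.map π ⊔ N.map π := by rw [hNmap, sup_bot_eq]
    _ = (A ⊔ N).map π := (Subgroup.map_sup A N π).symm
    _ = X.map π := by rw [heq]
    _ = H := hXmap

theorem hD_quot {G : Type u} [Group G] [Finite G] (N : Subgroup G) [N.Normal] (p : ℕ)
    (hp : p.Prime)
    (h : ∀ H K : Subgroup G, IsPGroup p H → IsPGroup p K → Nat.card H = Nat.card K →
      ∃ g : G, K = H.map (MulAut.conj g).toMonoidHom) :
    ∀ H K : Subgroup (G ⧸ N), IsPGroup p H → IsPGroup p K → Nat.card H = Nat.card K →
      ∃ g : G ⧸ N, K = H.map (MulAut.conj g).toMonoidHom := by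
  intro H K hH hK hcard
  have : Fact p.Prime := ⟨hp⟩
  obtain ⟨A, hAp, hAH, hAc⟩ := exists_lift N p H hH
  obtain ⟨B, hBp, hBK, hBc⟩ := exists_lift N p K hK
  obtain ⟨g, hg⟩ := h A B hAp hBp (by rw [hAc, hBc, hcard])
  refine ⟨QuotientGroup.mk' N g, ?_⟩
  rw [← hBK, ← hAH, hg, Subgroup.map_map, Subgroup.map_map]
  congr 1

end Cfsg.Agent.Lib.Helper71.EqQD
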