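import Mathlib

set_option autoImplicit false

universe u

namespace Cfsg.Agent.Lib.Helper71.EqRS

open scoped Pointwise

/-- An element of order `r ^ i` (`i ≤ 2`) is conjugate to an element of `N`. -/
theorem conj_of_order {G : Type u} [Group G] [Finite G] {r : ℕ} [Fact r.Prime]
    (h : ∀ H K : Subgroup G, IsPGroup r H → IsPGroup r K → Nat.card H = Nat.card K →
      ∃ g : G, K = H.map (MulAut.conj g).toMonoidHom)
    (N : Subgroup G) (hN2 : r ^ 2 ∣ Nat.card N) (i : ℕ) (hi : i ≤ 2)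
    (z : G) (hz : orderOf z = r ^ i) : ∃ g : G, ∃ e ∈ N, z = g * e * g⁻¹ := by
  have hdvd : r ^ i ∣ Nat.card N := (pow_dvd_pow r hi).trans hN2
  obtain ⟨K0, hK0⟩ := Sylow.exists_subgroup_card_pow_prime r hdvd
  set E : Subgroup G := K0.map N.subtype with hE
  have hEc : Nat.card E = r ^ i := by
    rw [hE, Subgroup.card_map_of_injective N.subtype_injective, hK0]
  have hEN : E ≤ N := Subgroup.map_subtype_le K0
  set U : Subgroup G := Subgroup.zpowers z with hU
  have hUc : Nat.card U = r ^ i := by rw [hU, Nat.card_zpowers, hz]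
  obtain ⟨g, hg⟩ := h E U (IsPGroup.of_card hEc) (IsPGroup.of_card hUc) (hEc.trans hUc.symm)
  have hzU : z ∈ U := Subgroup.mem_zpowers z
  rw [hg, Subgroup.mem_map] at hzU
  obtain ⟨e, he, hez⟩ := hzU
  exact ⟨g, e, hEN he, hez.symm⟩

theorem sylow_eq_of_elementary {G : Type u} [Group G] [Finite G] {r : ℕ} [Fact r.Prime]
    (h : ∀ H K : Subgroup G, IsPGroup r H → IsPGroup r K → Nat.card H = Nat.card K →
      ∃ g : G, K = H.map (MulAut.conj g).toMonoidHom)
    (N : Subgroup G) [N.Normal] (hN : ∀ x ∈ N, x ^ r = 1) (hN2 : r ^ 2 ∣ Nat.card N)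
    (P : Sylow r G) : (P : Subgroup G) = N := by
  have hr : r.Prime := Fact.out
  have hNp : IsPGroup r N := by
    intro x
    refine ⟨1, ?_⟩
    have h1 := hN x.1 x.2
    ext
    rw [pow_one, Subgroup.coe_pow, h1, Subgroup.coe_one]
  apply le_antisymm
  · -- P ≤ N
    intro y hy
    obtain ⟨k, hk⟩ := P.2 ⟨y, hy⟩
    have hk' : y ^ r ^ k = 1 := by
      have := congrArg Subtype.val hk
      rwa [Subgroup.coe_pow, Subgroup.coe_one] at this
    obtain ⟨j, -, hj⟩ := (Nat.dvd_prime_pow hr).mp (orderOf_dvd_of_pow_eq_one hk')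
    rcases Nat.lt_or_ge j 2 with hj2 | hj2
    · rcases Nat.eq_zero_or_pos j with hj0 | hj1
      · rw [hj0, pow_zero, orderOf_eq_one_iff] at hj
        rw [hj]
        exact N.one_mem
      · have hj1' : j = 1 := by omega
        obtain ⟨g, e, he, hze⟩ := conj_of_order h N hN2 j (by omega) y hj
        rw [hze]
        exact ‹N.Normal›.conj_mem e he g
    · exfalso
      have hpos : orderOf y ≠ 0 := by rw [hj]; exact pow_ne_zero _ hr.pos.ne'
      have hd : r ^ 2 ∣ orderOf y := by rw [hj]; exact pow_dvd_pow r hj2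
      have hx : orderOf (y ^ (orderOf y / r ^ 2)) = r ^ 2 := orderOf_pow_orderOf_div hpos hd
      obtain ⟨g, e, he, hze⟩ := conj_of_order h N hN2 2 le_rfl _ hx
      have h1 : (y ^ (orderOf y / r ^ 2)) ^ r = 1 := by
        rw [hze, conj_pow, hN e he]
        group
      have h2 := orderOf_dvd_of_pow_eq_one h1
      rw [hx] at h2
      have h3 : r ^ 2 ≤ r := Nat.le_of_dvd hr.pos h2
      have h4 : 2 ≤ r := hr.two_le
      nlinarith
  · -- N ≤ P
    obtain ⟨Q, hQ⟩ := hNp.exists_le_sylow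
    obtain ⟨g, hg⟩ := MulAction.exists_smul_eq G Q P
    intro x hx
    have h1 : g⁻¹ * x * g⁻¹⁻¹ ∈ N := ‹N.Normal›.conj_mem x hx g⁻¹
    have h2 : g⁻¹ * x * g⁻¹⁻¹ ∈ (Q : Subgroup G) := hQ h1
    have h3 : ((g • Q : Sylow r G) : Subgroup G) = MulAut.conj g • (Q : Subgroup G) :=
      Sylow.coe_subgroup_smul
    rw [← hg]
    show x ∈ ((g • Q : Sylow r G) : Subgroup G)
    rw [h3]
    have h4 := Subgroup.smul_mem_pointwise_smul _ (MulAut.conj g) (Q : Subgroup G) h2
    have h5 : MulAut.conj g • (g⁻¹ * x * g⁻¹⁻¹) = x := by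
      show (MulAut.conj g) (g⁻¹ * x * g⁻¹⁻¹) = x
      simp [MulAut.conj_apply]
      group
    rw [h5] at h4
    exact h4

end Cfsg.Agent.Lib.Helper71.EqRS
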