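import Mathlib

set_option autoImplicit false

universe u

namespace Cfsg.Agent.Lib.Helper71.EqSI

theorem card_mul_relIndex_aux {G : Type u} [Group G] {H K : Subgroup G} (h : H ≤ K) :
    Nat.card H * H.relIndex K = Nat.card K := by
  have h1 := (H.subgroupOf K).card_mul_index
  rw [Nat.card_congr (Subgroup.subgroupOfEquivOfLe h).toEquiv] at h1
  exact h1

/-- For a normal `r`-subgroup `N` of index prime to `r`, the order of `H ⊓ N` is the `r`-part
of the order of `H`, written as a divisibility-free characterisation. -/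
theorem card_inf_spec {G : Type u} [Group G] [Finite G] {r : ℕ} [Fact r.Prime] (N : Subgroup G)
    [N.Normal] (hN : IsPGroup r N) (hidx : ¬ r ∣ N.index) (H : Subgroup G) :
    ∃ k a : ℕ, Nat.card (H ⊓ N : Subgroup G) = r ^ k ∧ Nat.card H = r ^ k * a ∧ ¬ r ∣ a := by
  have hr : r.Prime := Fact.out
  have hp : IsPGroup r (H ⊓ N : Subgroup G) := hN.to_le inf_le_right
  obtain ⟨k, hk⟩ := IsPGroup.iff_card.mp hp
  refine ⟨k, (H ⊓ N).relIndex H, hk, ?_, ?_⟩
  · rw [← hk]
    exact (card_mul_relIndex_aux (inf_le_left : H ⊓ N ≤ H)).symm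
  · have h1 : (H ⊓ N).relIndex H = N.relIndex H := by
      rw [inf_comm, Subgroup.inf_relIndex_right]
    rw [h1]
    intro hd
    exact hidx (hd.trans (Subgroup.relIndex_dvd_index_of_normal N H))

theorem card_inf_eq {G : Type u} [Group G] [Finite G] {r : ℕ} [Fact r.Prime] (N : Subgroup G)
    [N.Normal] (hN : IsPGroup r N) (hidx : ¬ r ∣ N.index) (H K : Subgroup G)
    (hHK : Nat.card H = Nat.card K) :
    Nat.card (H ⊓ N : Subgroup G) = Nat.card (K ⊓ N : Subgroup G) := by
  have hr : r.Prime := Fact.out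
  obtain ⟨k, a, h1, h2, h3⟩ := card_inf_spec N hN hidx H
  obtain ⟨l, b, h4, h5, h6⟩ := card_inf_spec N hN hidx K
  rw [h1, h4]
  have e : r ^ k * a = r ^ l * b := by rw [← h2, ← h5, hHK]
  have c1 : (r ^ k).Coprime b := Nat.Coprime.pow_left k ((Nat.Prime.coprime_iff_not_dvd hr).mpr h6)
  have c2 : (r ^ l).Coprime a := Nat.Coprime.pow_left l ((Nat.Prime.coprime_iff_not_dvd hr).mpr h3)
  have d1 : r ^ k ∣ r ^ l := c1.dvd_of_dvd_mul_right (e ▸ Dvd.intro a rfl)
  have d2 : r ^ l ∣ r ^ k := c2.dvd_of_dvd_mul_right (e ▸ Dvd.intro b rfl)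
  exact Nat.dvd_antisymm d1 d2

end Cfsg.Agent.Lib.Helper71.EqSI
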