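import Mathlib

set_option autoImplicit false

universe u

namespace Cfsg.Agent.Lib.Helper71.EqZH

open scoped Pointwise

/-- In a finite cyclic group, a subgroup of order `d` contains every element with `x ^ d = 1`. -/
theorem mem_of_pow_card_eq_one {C : Type u} [Group C] [Finite C] [IsCyclic C] (L : Subgroup C)
    (x : C) (hx : x ^ Nat.card L = 1) : x ∈ L := by
  classical
  have : Fintype C := Fintype.ofFinite C
  set d := Nat.card L with hd
  have hdpos : 0 < d := Nat.card_pos
  set S : Finset C := Finset.univ.filter (fun a : C => a ^ d = 1) with hS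
  have hSle : S.card ≤ d := IsCyclic.card_pow_eq_one_le hdpos
  set T : Finset C := (L : Set C).toFinset with hT
  have hTS : T ⊆ S := by
    intro y hy
    rw [hT, Set.mem_toFinset] at hy
    rw [hS, Finset.mem_filter]
    refine ⟨Finset.mem_univ _, ?_⟩
    have h1 : (⟨y, hy⟩ : L) ^ Nat.card L = 1 := pow_card_eq_one'
    have h2 : ((⟨y, hy⟩ : L) : C) ^ Nat.card L = 1 := by
      rw [← Subgroup.coe_pow, h1, Subgroup.coe_one]
    exact h2
  have hTc : T.card = d := by
    rw [hT, Set.toFinset_card, hd, Nat.card_eq_fintype_card]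
    rfl
  have hTSeq : T = S := Finset.eq_of_subset_of_card_le hTS (by rw [hTc]; exact hSle)
  have hxS : x ∈ S := by
    rw [hS, Finset.mem_filter]
    exact ⟨Finset.mem_univ _, hx⟩
  rw [← hTSeq, hT, Set.mem_toFinset] at hxS
  exact hxS

theorem eq_of_card_eq_of_cyclic {C : Type u} [Group C] [Finite C] [IsCyclic C] (H K : Subgroup C)
    (h : Nat.card H = Nat.card K) : H = K := by
  ext x
  constructor
  · intro hx
    apply mem_of_pow_card_eq_one K x
    rw [← h]
    have h1 : (⟨x, hx⟩ : H) ^ Nat.card H = 1 := pow_card_eq_one'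
    have h2 : ((⟨x, hx⟩ : H) : C) ^ Nat.card H = 1 := by
      rw [← Subgroup.coe_pow, h1, Subgroup.coe_one]
    exact h2
  · intro hx
    apply mem_of_pow_card_eq_one H x
    rw [h]
    have h1 : (⟨x, hx⟩ : K) ^ Nat.card K = 1 := pow_card_eq_one'
    have h2 : ((⟨x, hx⟩ : K) : C) ^ Nat.card K = 1 := by
      rw [← Subgroup.coe_pow, h1, Subgroup.coe_one]
    exact h2

theorem hD_of_cyclic {Y : Type u} [Group Y] [Finite Y] (p : ℕ) (hp : p.Prime)
    (h : ∀ P : Sylow p Y, IsCyclic P) :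
    ∀ H K : Subgroup Y, IsPGroup p H → IsPGroup p K → Nat.card H = Nat.card K →
      ∃ g : Y, K = H.map (MulAut.conj g).toMonoidHom := by
  intro H K hH hK hcard
  have : Fact p.Prime := ⟨hp⟩
  obtain ⟨P, hHP⟩ := hH.exists_le_sylow
  obtain ⟨Q, hKQ⟩ := hK.exists_le_sylow
  obtain ⟨g, hg⟩ := MulAction.exists_smul_eq Y P Q
  refine ⟨g, ?_⟩
  set H' : Subgroup Y := H.map (MulAut.conj g).toMonoidHom with hH'
  have hH'Q : H' ≤ (Q : Subgroup Y) := by
    intro y hy
    rw [hH', Subgroup.mem_map] at hy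
    obtain ⟨x, hx, rfl⟩ := hy
    have hxP : x ∈ (P : Subgroup Y) := hHP hx
    have h1 : ((g • P : Sylow p Y) : Subgroup Y) = MulAut.conj g • (P : Subgroup Y) :=
      Sylow.coe_subgroup_smul
    rw [← hg]
    show (MulAut.conj g) x ∈ ((g • P : Sylow p Y) : Subgroup Y)
    rw [h1]
    exact Subgroup.smul_mem_pointwise_smul x (MulAut.conj g) (P : Subgroup Y) hxP
  have hc' : Nat.card H' = Nat.card H :=
    Subgroup.card_map_of_injective (MulAut.conj g).injective
  have : IsCyclic (Q : Subgroup Y) := h Q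
  have e1 : Nat.card (H'.subgroupOf (Q : Subgroup Y)) = Nat.card H' :=
    Nat.card_congr (Subgroup.subgroupOfEquivOfLe hH'Q).toEquiv
  have e2 : Nat.card (K.subgroupOf (Q : Subgroup Y)) = Nat.card K :=
    Nat.card_congr (Subgroup.subgroupOfEquivOfLe hKQ).toEquiv
  have e3 : H'.subgroupOf (Q : Subgroup Y) = K.subgroupOf (Q : Subgroup Y) :=
    eq_of_card_eq_of_cyclic _ _ (by rw [e1, e2, hc', hcard])
  ext x
  constructor
  · intro hx
    have hxQ : x ∈ (Q : Subgroup Y) := hKQ hx
    have h2 : (⟨x, hxQ⟩ : (Q : Subgroup Y)) ∈ K.subgroupOf (Q : Subgroup Y) :=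
      Subgroup.mem_subgroupOf.mpr hx
    rw [← e3] at h2
    exact Subgroup.mem_subgroupOf.mp h2
  · intro hx
    have hxQ : x ∈ (Q : Subgroup Y) := hH'Q hx
    have h2 : (⟨x, hxQ⟩ : (Q : Subgroup Y)) ∈ H'.subgroupOf (Q : Subgroup Y) :=
      Subgroup.mem_subgroupOf.mpr hx
    rw [e3] at h2
    exact Subgroup.mem_subgroupOf.mp h2

end Cfsg.Agent.Lib.Helper71.EqZH
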