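import Mathlib
import Cfsg.Agent.Lib.Helper32.D8Stmt

/-!
# S3716, piece `CS1` (second seat): class-pair sums on the `x`-side, no fusion

`core` is the general reduction (reusable for `CS2`, `CS3`): if the `G`-classes of the
involutions `u`, `v` meet `N` in a single `N`-class each, the class-pair sum of an induced
function is the local pair sum.
-/

set_option autoImplicit false

namespace Cfsg.Agent.Lib.Helper71.D8CS1

open Cfsg
open Cfsg.Agent.Lib.Helper32.D8Stmt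

universe u

theorem sq_of_isConj {G : Type u} [Group G] {u z : G} (hu2 : u ^ 2 = 1) (h : IsConj u z) :
    z ^ 2 = 1 := by
  obtain ⟨c, hc⟩ := isConj_iff.1 h
  rw [← hc, conj_pow, hu2, mul_one, mul_inv_cancel]

/-- The class-pair sum of an induced function as a local pair sum. -/
theorem core (hPS : PAIRSUM2.{u}) (hFB : FIB2b.{u}) {G : Type u} [Group G] [Fintype G]
    (N H : Subgroup G) (φ : H → ℂ) (u v : G) (hu2 : u ^ 2 = 1) (hv2 : v ^ 2 = 1)
    (hred : ∀ u₁ u₂ : G, u₁ ^ 2 = 1 → u₂ ^ 2 = 1 → extendByZero H φ (u₁ * u₂) ≠ 0 →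
      u₁ ∈ N ∧ u₂ ∈ N)
    (hcu : ∀ z ∈ N, IsConj u z → ∃ n ∈ N, z = n * u * n⁻¹)
    (hcv : ∀ z ∈ N, IsConj v z → ∃ n ∈ N, z = n * v * n⁻¹) :
    bb (indFun H φ) u v =
      (Nat.card G : ℂ)⁻¹ * ((Nat.card H : ℂ)⁻¹ * (cz u * cz v * lsum N H φ u v)) := by
  classical
  unfold bb
  have h1 := hFB (fun g₁ g₂ => extendByZero H φ (g₁ * g₂)) u v
  rw [hPS H φ u v, h1]
  congr 3
  unfold lsum ncl
  symm
  apply Finset.sum_subset_zero_on_sdiff
  · intro z hz
    simp only [Finset.mem_filter, Finset.mem_univ, true_and] at hz ⊢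
    obtain ⟨n, -, rfl⟩ := hz
    exact isConj_iff.2 ⟨n, rfl⟩
  · intro z hz
    rw [Finset.mem_sdiff] at hz
    simp only [Finset.mem_filter, Finset.mem_univ, true_and] at hz
    have hzN : z ∉ N := fun h => hz.2 (hcu z h hz.1)
    apply Finset.sum_eq_zero
    intro z2 hz2
    simp only [Finset.mem_filter, Finset.mem_univ, true_and] at hz2
    by_contra hne
    exact hzN (hred z z2 (sq_of_isConj hu2 hz.1) (sq_of_isConj hv2 hz2) hne).1
  · intro z hz
    simp only [Finset.mem_filter, Finset.mem_univ, true_and] at hz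
    obtain ⟨n, -, rfl⟩ := hz
    have hz2 : (n * u * n⁻¹) ^ 2 = 1 := by rw [conj_pow, hu2, mul_one, mul_inv_cancel]
    apply Finset.sum_subset_zero_on_sdiff
    · intro z' hz'
      simp only [Finset.mem_filter, Finset.mem_univ, true_and] at hz' ⊢
      obtain ⟨n', -, rfl⟩ := hz'
      exact isConj_iff.2 ⟨n', rfl⟩
    · intro z' hz'
      rw [Finset.mem_sdiff] at hz'
      simp only [Finset.mem_filter, Finset.mem_univ, true_and] at hz'
      have hzN : z' ∉ N := fun h => hz'.2 (hcv z' h hz'.1)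
      by_contra hne
      exact hzN (hred _ z' hz2 (sq_of_isConj hv2 hz'.1) hne).2
    · intro z' _
      rfl

theorem main (hPS : PAIRSUM2.{u}) (hFB : FIB2b.{u}) (hRED : RED2.{u}) (hINV : INVCL.{u})
    (hNF : NF.{u}) (hLaa : LOCaa.{u}) (hLaw : LOCaw.{u}) (hLww : LOCww.{u}) : CS1.{u} := by
  intro G _ _ T N x y a b w hC f g hO haw haz hwz
  have hcard : Nat.card (Subgroup.centralizer ({x} : Set G)) = 18 := (hNF hC).2.2.2.2.2.2
  have hca : ∀ z ∈ N, IsConj a z → ∃ n ∈ N, z = n * a * n⁻¹ := by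
    intro z hz hconj
    rcases hINV hC z hz (sq_of_isConj hC.a2 hconj) with h | h | h | h
    · subst h
      obtain ⟨c, hc⟩ := isConj_iff.1 hconj
      have ha1 : a = 1 := by
        have : a = c⁻¹ * (c * a * c⁻¹) * c := by group
        rw [this, hc]
        group
      exact ⟨1, N.one_mem, by rw [ha1]; group⟩
    · exact h
    · obtain ⟨n, -, rfl⟩ := h
      exact absurd (hconj.trans (isConj_iff.2 ⟨n⁻¹, by group⟩)) haw
    · obtain ⟨n, -, rfl⟩ := h
      exact absurd (hconj.trans (isConj_iff.2 ⟨n⁻¹, by group⟩)) haz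
  have hcw : ∀ z ∈ N, IsConj w z → ∃ n ∈ N, z = n * w * n⁻¹ := by
    intro z hz hconj
    rcases hINV hC z hz (sq_of_isConj hC.w2 hconj) with h | h | h | h
    · subst h
      obtain ⟨c, hc⟩ := isConj_iff.1 hconj
      have hw1 : w = 1 := by
        have : w = c⁻¹ * (c * w * c⁻¹) * c := by group
        rw [this, hc]
        group
      exact ⟨1, N.one_mem, by rw [hw1]; group⟩
    · obtain ⟨n, -, rfl⟩ := h
      exact absurd (hconj.trans (isConj_iff.2 ⟨n⁻¹, by group⟩)).symm haw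
    · exact h
    · obtain ⟨n, -, rfl⟩ := h
      exact absurd (hconj.trans (isConj_iff.2 ⟨n⁻¹, by group⟩)) hwz
  have hred1 : ∀ u₁ u₂ : G, u₁ ^ 2 = 1 → u₂ ^ 2 = 1 →
      extendByZero (Subgroup.centralizer ({x} : Set G)) (ph1 x f) (u₁ * u₂) ≠ 0 →
      u₁ ∈ N ∧ u₂ ∈ N := fun u₁ u₂ h1 h2 h => hRED hC f g hO u₁ u₂ h1 h2 (Or.inl h)
  have hred2 : ∀ u₁ u₂ : G, u₁ ^ 2 = 1 → u₂ ^ 2 = 1 →
      extendByZero (Subgroup.centralizer ({x} : Set G)) (ph2 x f g) (u₁ * u₂) ≠ 0 →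
      u₁ ∈ N ∧ u₂ ∈ N := fun u₁ u₂ h1 h2 h => hRED hC f g hO u₁ u₂ h1 h2 (Or.inr h)
  obtain ⟨haa1, haa2⟩ := hLaa hC f g hO
  obtain ⟨haw1, haw2⟩ := hLaw hC f g hO
  obtain ⟨hww1, hww2⟩ := hLww hC f g hO
  have hn : (Nat.card G : ℂ) ≠ 0 := Nat.cast_ne_zero.2 Nat.card_pos.ne'
  refine ⟨⟨?_, ?_, ?_⟩, ⟨?_, ?_, ?_⟩⟩
  · unfold th1
    rw [core hPS hFB N _ (ph1 x f) a a hC.a2 hC.a2 hred1 hca hca, haa1, hcard]
    push_cast
    field_simp
    ring
  · unfold th1
    rw [core hPS hFB N _ (ph1 x f) a w hC.a2 hC.w2 hred1 hca hcw, haw1, hcard]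
    simp
  · unfold th1
    rw [core hPS hFB N _ (ph1 x f) w w hC.w2 hC.w2 hred1 hcw hcw, hww1, hcard]
    push_cast
    field_simp
  · unfold th2
    rw [core hPS hFB N _ (ph2 x f g) a a hC.a2 hC.a2 hred2 hca hca, haa2, hcard]
    push_cast
    field_simp
    ring
  · unfold th2
    rw [core hPS hFB N _ (ph2 x f g) a w hC.a2 hC.w2 hred2 hca hcw, haw2, hcard]
    simp
  · unfold th2
    rw [core hPS hFB N _ (ph2 x f g) w w hC.w2 hC.w2 hred2 hcw hcw, hww2, hcard]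
    push_cast
    field_simp

end Cfsg.Agent.Lib.Helper71.D8CS1
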