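import Mathlib
import Cfsg.Prelude.Def_Blocks
import Cfsg.Agent.Lib.CT.Wedderburn
import Cfsg.Agent.Lib.CT.Ops
import Cfsg.Agent.Lib.Helper80.DefOneLoc
import Cfsg.Agent.Lib.Helper80.AbSylowCh
import Cfsg.Agent.Lib.Helper81.BrT2
import Cfsg.Agent.Lib.Helper67.BrL24
import Cfsg.Agent.Lib.Helper21.BrL3
import Cfsg.Agent.Lib.Helper76.BrRBStmt

/-!
# S4504, piece T1T: the type of a character of degree at most `(p - 1) / 2`

A copy of `Helper74.BrauerT1.small_degree_type`, with the hypothesis `T1B` in place of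
`Helper80.BrT1core.small_degree_core`.
-/

set_option autoImplicit false
set_option linter.style.haveILetI false

namespace Cfsg.Agent.Lib.Helper71.BrRBT1T

open Cfsg Cfsg.Agent.Lib.CT Cfsg.Agent.Lib.CT.Wedderburn Cfsg.Agent.Lib.CT.Ops
  Cfsg.Agent.Lib.Helper80.AbSylowCh
open scoped ComplexConjugate

universe u

theorem main (h : Cfsg.Agent.Lib.Helper76.BrRB.T1B.{u}) :
    Cfsg.Agent.Lib.Helper76.BrRB.T1T.{u} := by
  intro G _ _ p _ P hP ξ hdeg
  revert h
  intro h
  show (∀ x : G, x ∈ (P : Subgroup G) → (ξ : G → ℂ) x = (ξ : G → ℂ) 1) ∨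
    ((Subgroup.centralizer ((P : Subgroup G) : Set G)).relIndex
        (Subgroup.normalizer ((P : Subgroup G) : Set G)) ≤ charDegree (ξ : G → ℂ) ∧
      ∑ᶠ c ∈ ((Subgroup.centralizer ((P : Subgroup G) : Set G) : Subgroup G) : Set G),
        (ξ : G → ℂ) c * conj ((ξ : G → ℂ) c) =
        ((Subgroup.centralizer ((P : Subgroup G) : Set G)).relIndex
          (Subgroup.normalizer ((P : Subgroup G) : Set G)) : ℂ) *
          (Nat.card ↥(Subgroup.centralizer ((P : Subgroup G) : Set G)) : ℂ) ∧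
      ∃ ψ₀ : ↥(P : Subgroup G) →* ℂˣ, ψ₀ ≠ 1 ∧
        ∀ ψ : ↥(P : Subgroup G) →* ℂˣ,
          ∑ᶠ u : ↥(P : Subgroup G), (ξ : G → ℂ) (u : G) * conj ((ψ u : ℂˣ) : ℂ) ≠ 0 →
          ∃ n : G, n ∈ Subgroup.normalizer ((P : Subgroup G) : Set G) ∧
            ∀ (u u' : ↥(P : Subgroup G)), (u' : G) = n * (u : G) * n⁻¹ → ψ u = ψ₀ u')
  classical
  letI : Fintype G := Fintype.ofFinite G
  letI : Fintype ↥(Subgroup.centralizer ((P : Subgroup G) : Set G)) := Fintype.ofFinite _
  letI : Fintype ↥(P : Subgroup G) := Fintype.ofFinite _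
  have hξc : IsCharacter G (ξ : G → ℂ) := isCharacter_of_irr ξ.2
  have hPC : (P : Subgroup G) ≤ Subgroup.centralizer ((P : Subgroup G) : Set G) :=
    Cfsg.Agent.Lib.Helper80.DefOneLoc.le_centralizer P hP
  rcases h p P hP ξ hdeg with h1 | ⟨φ₀, ψ₀, hψ₀, hφ₀, hm, hdegle⟩
  · exact Or.inl h1
  · right
    obtain ⟨S, hScard, hS⟩ := Cfsg.Agent.Lib.Helper21.BrL3.exists_orbit p P hP (ξ : G → ℂ) hξc φ₀ ψ₀ hψ₀ hφ₀ hm
    have hres : IsCharacter ↥(Subgroup.centralizer ((P : Subgroup G) : Set G))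
        (fun c : ↥(Subgroup.centralizer ((P : Subgroup G) : Set G)) => (ξ : G → ℂ) (c : G)) :=
      isCharacter_restrict _ hξc
    have hsumdeg : ∑ φ ∈ S,
        charDegree (φ : ↥(Subgroup.centralizer ((P : Subgroup G) : Set G)) → ℂ) =
        (Subgroup.centralizer ((P : Subgroup G) : Set G)).relIndex
          (Subgroup.normalizer ((P : Subgroup G) : Set G)) *
          charDegree (φ₀ : ↥(Subgroup.centralizer ((P : Subgroup G) : Set G)) → ℂ) := by
      rw [Finset.sum_congr rfl (fun φ hφ => (hS φ hφ).2.1), Finset.sum_const, smul_eq_mul,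
        hScard]
    have hdeg' : charDegree
        (fun c : ↥(Subgroup.centralizer ((P : Subgroup G) : Set G)) => (ξ : G → ℂ) (c : G)) ≤
        ∑ φ ∈ S, charDegree (φ : ↥(Subgroup.centralizer ((P : Subgroup G) : Set G)) → ℂ) := by
      rw [hsumdeg]
      exact hdegle
    obtain ⟨hsum, hnormC⟩ := Cfsg.Agent.Lib.Helper67.BrL24.eq_sum_of_degree_le _ hres S (fun φ hφ => (hS φ hφ).1) hdeg'
    have hφ₀pos : 0 < charDegree
        (φ₀ : ↥(Subgroup.centralizer ((P : Subgroup G) : Set G)) → ℂ) :=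
      irr_charDegree_pos φ₀.2
    refine ⟨?_, ?_, ψ₀, hψ₀, ?_⟩
    · -- degree
      have h1 := hsum 1
      have h2 : ((charDegree (ξ : G → ℂ) : ℕ) : ℂ) = ((∑ φ ∈ S,
          charDegree (φ : ↥(Subgroup.centralizer ((P : Subgroup G) : Set G)) → ℂ) : ℕ) : ℂ) := by
        rw [char_natCast_charDegree hξc, Nat.cast_sum]
        rw [show (ξ : G → ℂ) 1 = (ξ : G → ℂ)
          ((1 : ↥(Subgroup.centralizer ((P : Subgroup G) : Set G))) : G) from rfl, h1]
        exact Finset.sum_congr rfl fun φ _ =>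
          (char_natCast_charDegree (isCharacter_of_irr φ.2)).symm
      have h3 : charDegree (ξ : G → ℂ) = ∑ φ ∈ S,
          charDegree (φ : ↥(Subgroup.centralizer ((P : Subgroup G) : Set G)) → ℂ) := by
        exact_mod_cast h2
      rw [h3, hsumdeg]
      exact Nat.le_mul_of_pos_right _ hφ₀pos
    · -- norm
      have e : ∑ᶠ c ∈ ((Subgroup.centralizer ((P : Subgroup G) : Set G) : Subgroup G) : Set G),
          (ξ : G → ℂ) c * conj ((ξ : G → ℂ) c) =
          ∑ c : ↥(Subgroup.centralizer ((P : Subgroup G) : Set G)),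
            (ξ : G → ℂ) (c : G) * conj ((ξ : G → ℂ) (c : G)) := by
        rw [← finsum_set_coe_eq_finsum_mem, finsum_eq_sum_of_fintype]
        rfl
      have hCne : (Nat.card ↥(Subgroup.centralizer ((P : Subgroup G) : Set G)) : ℂ) ≠ 0 :=
        Nat.cast_ne_zero.mpr Nat.card_pos.ne'
      unfold classInner at hnormC
      rw [e, ← hScard, ← hnormC, mul_comm, ← mul_assoc, mul_inv_cancel₀ hCne, one_mul]
    · -- support
      intro ψ hψ
      by_contra hcon
      apply hψ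
      rw [finsum_eq_sum_of_fintype]
      have hu : ∀ u : ↥(P : Subgroup G), (ξ : G → ℂ) (u : G) = ∑ φ ∈ S,
          (φ : ↥(Subgroup.centralizer ((P : Subgroup G) : Set G)) → ℂ) ⟨(u : G), hPC u.2⟩ :=
        fun u => hsum ⟨(u : G), hPC u.2⟩
      simp_rw [hu, Finset.sum_mul]
      rw [Finset.sum_comm]
      refine Finset.sum_eq_zero fun φ hφ => ?_
      obtain ⟨n, hn, hnφ⟩ := (hS φ hφ).2.2
      have hval : ∀ u : ↥(P : Subgroup G),
          (φ : ↥(Subgroup.centralizer ((P : Subgroup G) : Set G)) → ℂ) ⟨(u : G), hPC u.2⟩ *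
            conj ((ψ u : ℂˣ) : ℂ) =
          (φ₀ : ↥(Subgroup.centralizer ((P : Subgroup G) : Set G)) → ℂ) 1 *
            ((((ψ₀.comp (cj (P : Subgroup G) n hn)) u : ℂˣ) : ℂ) * conj ((ψ u : ℂˣ) : ℂ)) := by
        intro u
        rw [hnφ u (cj (P : Subgroup G) n hn u) ⟨(u : G), hPC u.2⟩ rfl (cj_coe _ n hn u)]
        rw [MonoidHom.comp_apply, mul_assoc]
      rw [Finset.sum_congr rfl (fun u _ => hval u), ← Finset.mul_sum,
        Cfsg.Agent.Lib.Helper81.BrT2.orth_lin]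
      have hne : ψ₀.comp (cj (P : Subgroup G) n hn) ≠ ψ := by
        intro h
        apply hcon
        refine ⟨n, hn, fun u u' hu' => ?_⟩
        rw [← h, MonoidHom.comp_apply]
        congr 1
        exact Subtype.ext ((cj_coe _ n hn u).trans hu'.symm)
      rw [if_neg hne, mul_zero]

end Cfsg.Agent.Lib.Helper71.BrRBT1T
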