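import Mathlib
import Cfsg.Agent.Lib.Helper88.CEStmt
import Cfsg.Agent.Lib.Helper88.FSBase

/-! S5127 piece UFIX (helper71): an extension `ψ` of order prime to `p` of `α ∈ Aut_E(P)` to
`P C₀`, moving `C₀` by elements of `T`, fixes every `X` centralizing `E` elementwise. -/

set_option autoImplicit false

namespace Cfsg.Agent.Lib.Helper71.CEUFIX

open Cfsg Cfsg.FusionSystem Cfsg.Agent.Lib.Helper88.CEStmt Cfsg.Agent.Lib.Helper88.FCStmt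
open Cfsg.Agent.Lib.Helper88

universe u

section aux

variable {Ω : Type*} [Group Ω]

theorem sup_top (P X : Subgroup Ω) (K : Subgroup ↥(P ⊔ X))
    (hP : ∀ y : ↥(P ⊔ X), (y : Ω) ∈ P → y ∈ K)
    (hX : ∀ y : ↥(P ⊔ X), (y : Ω) ∈ X → y ∈ K) : ∀ y, y ∈ K := by
  have h := Subgroup.subgroupOf_sup (le_sup_left : P ≤ P ⊔ X) (le_sup_right : X ≤ P ⊔ X)
  rw [Subgroup.subgroupOf_self] at h
  have hK : (⊤ : Subgroup ↥(P ⊔ X)) ≤ K := by
    rw [h]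
    refine sup_le ?_ ?_
    · intro y hy
      exact hP y (Subgroup.mem_subgroupOf.mp hy)
    · intro y hy
      exact hX y (Subgroup.mem_subgroupOf.mp hy)
  intro y
  exact hK (Subgroup.mem_top y)

theorem hom_ext_sup {G : Type*} [Group G] (P X : Subgroup Ω) (f g : ↥(P ⊔ X) →* G)
    (hP : ∀ y : ↥(P ⊔ X), (y : Ω) ∈ P → f y = g y)
    (hX : ∀ y : ↥(P ⊔ X), (y : Ω) ∈ X → f y = g y) : ∀ y, f y = g y := by
  intro y
  exact sup_top P X (MonoidHom.eqLocus f g) hP hX y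

theorem aut_ext_sup (P X : Subgroup Ω) (f g : MulAut ↥(P ⊔ X))
    (hP : ∀ y : ↥(P ⊔ X), (y : Ω) ∈ P → f y = g y)
    (hX : ∀ y : ↥(P ⊔ X), (y : Ω) ∈ X → f y = g y) : f = g :=
  MulEquiv.ext (hom_ext_sup P X f.toMonoidHom g.toMonoidHom hP hX)

theorem pow_restrict {A B : Type*} [Group A] [Group B] (ι : A →* B) (f : MulAut A)
    (g : MulAut B) (h : ∀ x, g (ι x) = ι (f x)) (k : ℕ) : ∀ x, (g ^ k) (ι x) = ι ((f ^ k) x) := by
  induction k with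
  | zero => intro x; simp
  | succ k ih =>
    intro x
    rw [pow_succ, pow_succ, MulAut.mul_apply, MulAut.mul_apply, h, ih]

theorem pow_fix {A : Type*} [Group A] (f : MulAut A) (x : A) (h : f x = x) (k : ℕ) :
    (f ^ k) x = x := by
  induction k with
  | zero => simp
  | succ k ih => rw [pow_succ, MulAut.mul_apply, h, ih]

end aux

section isK

variable {Ω : Type u} [Group Ω] {S : Subgroup Ω}

theorem isK_mul_apply (hK : KMem.{u}) (F : FusionSystem S) (T : Subgroup Ω) (hTS : T ≤ S)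
    (P : Subgroup Ω) (hPT : P ≤ T) (hcen : centralizerIn T P ≤ P) (X : Subgroup Ω)
    (hX : X ≤ centralizerIn S T) (κ₁ κ₂ : MulAut ↥(P ⊔ X)) (hκ₁ : IsK F T P X κ₁)
    (hκ₂ : IsK F T P X κ₂) (x : ↥(P ⊔ X)) (hx : (x : Ω) ∈ X) :
    x⁻¹ * (κ₁ * κ₂) x = (x⁻¹ * κ₁ x) * (x⁻¹ * κ₂ x) := by
  have h2 : ((x⁻¹ * κ₂ x : ↥(P ⊔ X)) : Ω) ∈ P := (hK F T hTS P hPT hcen X hX κ₂ hκ₂ x hx).1
  calc x⁻¹ * (κ₁ * κ₂) x = x⁻¹ * κ₁ (x * (x⁻¹ * κ₂ x)) := by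
        rw [mul_inv_cancel_left]; rfl
    _ = x⁻¹ * (κ₁ x * κ₁ (x⁻¹ * κ₂ x)) := by rw [map_mul]
    _ = x⁻¹ * (κ₁ x * (x⁻¹ * κ₂ x)) := by rw [hκ₁.2.1 _ h2]
    _ = (x⁻¹ * κ₁ x) * (x⁻¹ * κ₂ x) := by rw [mul_assoc]

theorem isK_inv_apply (hK : KMem.{u}) (F : FusionSystem S) (T : Subgroup Ω) (hTS : T ≤ S)
    (P : Subgroup Ω) (hPT : P ≤ T) (hcen : centralizerIn T P ≤ P) (X : Subgroup Ω)
    (hX : X ≤ centralizerIn S T) (κ : MulAut ↥(P ⊔ X)) (hκ : IsK F T P X κ)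
    (x : ↥(P ⊔ X)) (hx : (x : Ω) ∈ X) :
    x⁻¹ * κ⁻¹ x = (x⁻¹ * κ x)⁻¹ := by
  have h1 : ((x⁻¹ * κ x : ↥(P ⊔ X)) : Ω) ∈ P := (hK F T hTS P hPT hcen X hX κ hκ x hx).1
  have h1' : (((x⁻¹ * κ x)⁻¹ : ↥(P ⊔ X)) : Ω) ∈ P := P.inv_mem h1
  have h : κ (x * (x⁻¹ * κ x)⁻¹) = x := by
    rw [map_mul, hκ.2.1 _ h1']
    group
  have h3 := MulAut.inv_apply_self _ κ (x * (x⁻¹ * κ x)⁻¹)
  rw [h] at h3
  rw [h3, inv_mul_cancel_left]

/-- `K_X(P)` as a subgroup of `Aut(P X)`. -/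
def KSub (hK : KMem.{u}) (F : FusionSystem S) (T : Subgroup Ω) (hTS : T ≤ S)
    (P : Subgroup Ω) (hPT : P ≤ T) (hcen : centralizerIn T P ≤ P) (X : Subgroup Ω)
    (hX : X ≤ centralizerIn S T) : Subgroup (MulAut ↥(P ⊔ X)) where
  carrier := {κ | IsK F T P X κ}
  mul_mem' := by
    intro κ₁ κ₂ hκ₁ hκ₂
    refine ⟨(F.autGroup (P ⊔ X)).mul_mem hκ₁.1 hκ₂.1, ?_, ?_⟩
    · intro u hu
      rw [MulAut.mul_apply, hκ₂.2.1 u hu, hκ₁.2.1 u hu]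
    · intro x hx
      have h := isK_mul_apply hK F T hTS P hPT hcen X hX κ₁ κ₂ hκ₁ hκ₂ x hx
      have h' : (x : Ω)⁻¹ * (((κ₁ * κ₂) x : ↥(P ⊔ X)) : Ω) =
          ((x : Ω)⁻¹ * ((κ₁ x : ↥(P ⊔ X)) : Ω)) * ((x : Ω)⁻¹ * ((κ₂ x : ↥(P ⊔ X)) : Ω)) :=
        congrArg Subtype.val h
      rw [h']
      exact T.mul_mem (hκ₁.2.2 x hx) (hκ₂.2.2 x hx)
  one_mem' := by
    refine ⟨(F.autGroup (P ⊔ X)).one_mem, fun u _ => rfl, ?_⟩
    intro x _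
    have : (x : Ω)⁻¹ * (((1 : MulAut ↥(P ⊔ X)) x : ↥(P ⊔ X)) : Ω) = 1 := by
      rw [MulAut.one_apply, inv_mul_cancel]
    rw [this]
    exact T.one_mem
  inv_mem' := by
    intro κ hκ
    refine ⟨(F.autGroup (P ⊔ X)).inv_mem hκ.1, ?_, ?_⟩
    · intro u hu
      have h3 := MulAut.inv_apply_self _ κ u
      rw [hκ.2.1 u hu] at h3
      exact h3
    · intro x hx
      have h := isK_inv_apply hK F T hTS P hPT hcen X hX κ hκ x hx
      have h' : (x : Ω)⁻¹ * ((κ⁻¹ x : ↥(P ⊔ X)) : Ω) =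
          ((x : Ω)⁻¹ * ((κ x : ↥(P ⊔ X)) : Ω))⁻¹ := congrArg Subtype.val h
      rw [h']
      exact T.inv_mem (hκ.2.2 x hx)

theorem mem_KSub (hK : KMem.{u}) (F : FusionSystem S) (T : Subgroup Ω) (hTS : T ≤ S)
    (P : Subgroup Ω) (hPT : P ≤ T) (hcen : centralizerIn T P ≤ P) (X : Subgroup Ω)
    (hX : X ≤ centralizerIn S T) (κ : MulAut ↥(P ⊔ X)) :
    κ ∈ KSub hK F T hTS P hPT hcen X hX ↔ IsK F T P X κ := Iff.rfl

theorem isK_pow_apply (hK : KMem.{u}) (F : FusionSystem S) (T : Subgroup Ω) (hTS : T ≤ S)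
    (P : Subgroup Ω) (hPT : P ≤ T) (hcen : centralizerIn T P ≤ P) (X : Subgroup Ω)
    (hX : X ≤ centralizerIn S T) (κ : MulAut ↥(P ⊔ X)) (hκ : IsK F T P X κ)
    (x : ↥(P ⊔ X)) (hx : (x : Ω) ∈ X) (k : ℕ) :
    x⁻¹ * (κ ^ k) x = (x⁻¹ * κ x) ^ k := by
  induction k with
  | zero => simp
  | succ k ih =>
    have hk : IsK F T P X (κ ^ k) :=
      (KSub hK F T hTS P hPT hcen X hX).pow_mem hκ k
    rw [pow_succ, isK_mul_apply hK F T hTS P hPT hcen X hX (κ ^ k) κ hk hκ x hx, ih, pow_succ]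

theorem isK_comm (hK : KMem.{u}) (F : FusionSystem S) (T : Subgroup Ω) (hTS : T ≤ S)
    (P : Subgroup Ω) (hPT : P ≤ T) (hcen : centralizerIn T P ≤ P) (X : Subgroup Ω)
    (hX : X ≤ centralizerIn S T) (κ₁ κ₂ : MulAut ↥(P ⊔ X)) (hκ₁ : IsK F T P X κ₁)
    (hκ₂ : IsK F T P X κ₂) : κ₁ * κ₂ = κ₂ * κ₁ := by
  apply aut_ext_sup
  · intro u hu
    rw [MulAut.mul_apply, MulAut.mul_apply, hκ₂.2.1 u hu, hκ₁.2.1 u hu, hκ₂.2.1 u hu]
  · intro x hx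
    have h12 := isK_mul_apply hK F T hTS P hPT hcen X hX κ₁ κ₂ hκ₁ hκ₂ x hx
    have h21 := isK_mul_apply hK F T hTS P hPT hcen X hX κ₂ κ₁ hκ₂ hκ₁ x hx
    have h1 := hK F T hTS P hPT hcen X hX κ₁ hκ₁ x hx
    have h2 := hK F T hTS P hPT hcen X hX κ₂ hκ₂ x hx
    have hc : (x⁻¹ * κ₁ x) * (x⁻¹ * κ₂ x) = (x⁻¹ * κ₂ x) * (x⁻¹ * κ₁ x) := by
      apply Subtype.ext
      exact (h1.2 _ h2.1).symm
    rw [hc, ← h21] at h12
    exact mul_left_cancel h12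

end isK

theorem main (hK : KMem.{u}) (hC : CoprimeConj.{u}) : UFix.{u} := by
  intro Ω _ S _ p _ hS F hF T E hE P hPc hJ X hX hXc ψ hψ m hm hψm α hα hψα hψT c hc
  have hTS : T ≤ S := hE.1.2.2.2.1.1
  have hPT : P ≤ T := hPc.1
  have hPS : P ≤ S := hPT.trans hTS
  have hcen : centralizerIn T P ≤ P := hPc.2 P (FSBase.isConj_refl E hPT)
  have hC0S : centralizerIn S T ≤ S := inf_le_left
  have hXS : X ≤ S := hX.trans hC0S
  have hPXS : P ⊔ X ≤ S := sup_le hPS hXS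
  have hPCS : P ⊔ centralizerIn S T ≤ S := sup_le hPS hC0S
  have hle : P ⊔ X ≤ P ⊔ centralizerIn S T := sup_le_sup_left hX P
  haveI : Finite ↥(P ⊔ X) := Finite.of_injective _ (Subgroup.inclusion_injective hPXS)
  -- the lift `a` of `α` fixing `X`
  have hαE : P.subtype.comp α.toMonoidHom ∈ E.Hom P := (FSBase.mem_autGroup_iff E hPT α).mp hα
  obtain ⟨-, -, -, ψ', hψ', hψ'P, hψ'X⟩ := hXc P hαE
  have hψ'P' : ∀ (y : ↥(P ⊔ X)) (hy : (y : Ω) ∈ P), ψ' y = ((α ⟨y, hy⟩ : P) : Ω) :=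
    fun y hy => hψ'P ⟨y, hy⟩
  have hψ'X' : ∀ (y : ↥(P ⊔ X)) (_ : (y : Ω) ∈ X), ψ' y = (y : Ω) :=
    fun y hy => hψ'X ⟨y, hy⟩
  have hv' : ∀ y : ↥(P ⊔ X), ψ' y ∈ P ⊔ X := by
    refine sup_top P X ((P ⊔ X).comap ψ') ?_ ?_
    · intro y hy
      show ψ' y ∈ P ⊔ X
      rw [hψ'P' y hy]
      exact Subgroup.mem_sup_left (α ⟨y, hy⟩).2
    · intro y hy
      show ψ' y ∈ P ⊔ X
      rw [hψ'X' y hy]
      exact y.2
  obtain ⟨a, ha, haψ⟩ := FSBase.exists_aut_of_mem F hψ' (FSBase.range_eq_of_finite F hψ' hv')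
  have haP : ∀ v : P, a (Subgroup.inclusion le_sup_left v) = Subgroup.inclusion le_sup_left (α v) := by
    intro v
    apply Subtype.ext
    rw [haψ]
    exact hψ'P v
  have haX : ∀ (y : ↥(P ⊔ X)), (y : Ω) ∈ X → a y = y := by
    intro y hy
    apply Subtype.ext
    rw [haψ]
    exact hψ'X' y hy
  -- the restriction `g` of `ψ` to `P X`
  have hψF : (P ⊔ centralizerIn S T).subtype.comp ψ.toMonoidHom ∈ F.Hom (P ⊔ centralizerIn S T) :=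
    (FSBase.mem_autGroup_iff F hPCS ψ).mp hψ
  have hψ₀ := FSBase.restrict_mem F hle hψF
  set ψ₀ : ↥(P ⊔ X) →* Ω :=
    ((P ⊔ centralizerIn S T).subtype.comp ψ.toMonoidHom).comp (Subgroup.inclusion hle) with hψ₀def
  have hψ₀P : ∀ (y : ↥(P ⊔ X)) (hy : (y : Ω) ∈ P), ψ₀ y = ((α ⟨y, hy⟩ : P) : Ω) :=
    fun y hy => hψα ⟨y, hy⟩
  have hψ₀X : ∀ (y : ↥(P ⊔ X)) (_ : (y : Ω) ∈ X), (y : Ω)⁻¹ * ψ₀ y ∈ P := by
    intro y hy
    have hzT : (y : Ω)⁻¹ * ψ₀ y ∈ T := hψT (Subgroup.inclusion hle y) (hX hy)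
    apply hcen
    refine Subgroup.mem_inf.mpr ⟨hzT, ?_⟩
    rw [Subgroup.mem_centralizer_iff]
    intro u hu
    have hyc : ∀ t ∈ T, t * (y : Ω) = (y : Ω) * t :=
      fun t ht => Subgroup.mem_centralizer_iff.mp (hX hy).2 t ht
    have huy : u * (y : Ω) = (y : Ω) * u := hyc u (hPT hu)
    -- `u = ψ₀ w` with `w = α⁻¹ u`
    set w : ↥(P ⊔ X) := Subgroup.inclusion le_sup_left (α⁻¹ ⟨u, hu⟩) with hw
    have hwP : (w : Ω) ∈ P := (α⁻¹ ⟨u, hu⟩).2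
    have hψw : ψ₀ w = u := by
      rw [hψ₀P w hwP]
      have : α ⟨(w : Ω), hwP⟩ = ⟨u, hu⟩ := MulAut.apply_inv_self _ α ⟨u, hu⟩
      rw [this]
    have hwy : w * y = y * w := by
      apply Subtype.ext
      exact hyc _ (hPT hwP)
    have h1 : ψ₀ w * ψ₀ y = ψ₀ y * ψ₀ w := by
      rw [← map_mul, ← map_mul, hwy]
    rw [hψw] at h1
    calc u * ((y : Ω)⁻¹ * ψ₀ y) = (y : Ω)⁻¹ * ((y : Ω) * u) * (y : Ω)⁻¹ * ψ₀ y := by group
      _ = (y : Ω)⁻¹ * (u * (y : Ω)) * (y : Ω)⁻¹ * ψ₀ y := by rw [huy]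
      _ = (y : Ω)⁻¹ * (u * ψ₀ y) := by group
      _ = (y : Ω)⁻¹ * (ψ₀ y * u) := by rw [h1]
      _ = (y : Ω)⁻¹ * ψ₀ y * u := by group
  have hv₀ : ∀ y : ↥(P ⊔ X), ψ₀ y ∈ P ⊔ X := by
    refine sup_top P X ((P ⊔ X).comap ψ₀) ?_ ?_
    · intro y hy
      show ψ₀ y ∈ P ⊔ X
      rw [hψ₀P y hy]
      exact Subgroup.mem_sup_left (α ⟨y, hy⟩).2
    · intro y hy
      show ψ₀ y ∈ P ⊔ X
      have : ψ₀ y = (y : Ω) * ((y : Ω)⁻¹ * ψ₀ y) := by group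
      rw [this]
      exact (P ⊔ X).mul_mem y.2 (Subgroup.mem_sup_left (hψ₀X y hy))
  obtain ⟨g, hg, hgψ⟩ := FSBase.exists_aut_of_mem F hψ₀ (FSBase.range_eq_of_finite F hψ₀ hv₀)
  have hgincl : ∀ y : ↥(P ⊔ X), ψ (Subgroup.inclusion hle y) = Subgroup.inclusion hle (g y) := by
    intro y
    apply Subtype.ext
    exact (hgψ y).symm
  have hgP : ∀ v : P, g (Subgroup.inclusion le_sup_left v) = Subgroup.inclusion le_sup_left (α v) := by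
    intro v
    apply Subtype.ext
    rw [hgψ]
    exact hψα v
  -- powers
  have hψincl : ∀ v : P, ψ (Subgroup.inclusion le_sup_left v) =
      Subgroup.inclusion le_sup_left (α v) := by
    intro v
    apply Subtype.ext
    exact hψα v
  have hαm : α ^ m = 1 := by
    ext v
    have h := pow_restrict (Subgroup.inclusion (le_sup_left : P ≤ P ⊔ centralizerIn S T)) α ψ
      hψincl m v
    rw [hψm] at h
    exact (congrArg Subtype.val h).symm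
  have hgm : g ^ m = 1 := by
    ext y
    have h := pow_restrict (Subgroup.inclusion hle) g ψ hgincl m y
    rw [hψm] at h
    exact (congrArg Subtype.val h).symm
  have ham : a ^ m = 1 := by
    apply aut_ext_sup
    · intro y hy
      have h := pow_restrict (Subgroup.inclusion (le_sup_left : P ≤ P ⊔ X)) α a haP m ⟨y, hy⟩
      rw [hαm] at h
      exact h
    · intro y hy
      exact pow_fix a y (haX y hy) m
  -- inverses of `a`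
  have hainvP : ∀ v : P, a⁻¹ (Subgroup.inclusion le_sup_left v) =
      Subgroup.inclusion le_sup_left (α⁻¹ v) := by
    intro v
    have h := haP (α⁻¹ v)
    rw [MulAut.apply_inv_self] at h
    rw [← h, MulAut.inv_apply_self]
  have hainvX : ∀ (y : ↥(P ⊔ X)), (y : Ω) ∈ X → a⁻¹ y = y := by
    intro y hy
    have h := MulAut.inv_apply_self _ a y
    rw [haX y hy] at h
    exact h
  -- the group `K_X(P)`
  obtain ⟨n, hn⟩ := (IsPGroup.iff_card (p := p) (G := S)).mp hS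
  let M := KSub hK F T hTS P hPT hcen X hX
  have hMc : ∀ x ∈ M, ∀ y ∈ M, x * y = y * x :=
    fun x hx y hy => isK_comm hK F T hTS P hPT hcen X hX x y hx hy
  have hMe : ∀ κ ∈ M, κ ^ (p ^ n) = 1 := by
    intro κ hκ
    apply aut_ext_sup
    · intro u hu
      exact (M.pow_mem hκ (p ^ n)).2.1 u hu
    · intro x hx
      have h := isK_pow_apply hK F T hTS P hPT hcen X hX κ hκ x hx (p ^ n)
      have hd : ((x⁻¹ * κ x : ↥(P ⊔ X)) : Ω) ∈ P := (hK F T hTS P hPT hcen X hX κ hκ x hx).1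
      have h1 : (x⁻¹ * κ x) ^ (p ^ n) = 1 := by
        apply Subtype.ext
        have h2 : (⟨_, hPS hd⟩ : S) ^ Nat.card S = 1 := pow_card_eq_one'
        rw [hn] at h2
        have h3 : (((x⁻¹ * κ x : ↥(P ⊔ X)) : Ω)) ^ (p ^ n) = 1 := congrArg Subtype.val h2
        exact h3
      rw [h1] at h
      rw [MulAut.one_apply]
      exact inv_mul_eq_one.mp h |>.symm
  have hMn : ∀ κ ∈ M, a * κ * a⁻¹ ∈ M := by
    intro κ hκ
    refine ⟨(F.autGroup (P ⊔ X)).mul_mem ((F.autGroup (P ⊔ X)).mul_mem ha hκ.1)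
      ((F.autGroup (P ⊔ X)).inv_mem ha), ?_, ?_⟩
    · intro u hu
      rw [MulAut.mul_apply, MulAut.mul_apply]
      have h1 : a⁻¹ u = Subgroup.inclusion le_sup_left (α⁻¹ ⟨u, hu⟩) := hainvP ⟨u, hu⟩
      have h2 : κ (a⁻¹ u) = a⁻¹ u := by
        apply hκ.2.1
        rw [h1]
        exact (α⁻¹ ⟨u, hu⟩).2
      rw [h2, MulAut.apply_inv_self]
    · intro x hx
      have hd : ((x⁻¹ * κ x : ↥(P ⊔ X)) : Ω) ∈ P := (hK F T hTS P hPT hcen X hX κ hκ x hx).1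
      have e : (a * κ * a⁻¹) x = x * a (x⁻¹ * κ x) := by
        rw [MulAut.mul_apply, MulAut.mul_apply, hainvX x hx, map_mul, map_inv,
          haX x hx, mul_inv_cancel_left]
      have e2 : a (x⁻¹ * κ x) = Subgroup.inclusion le_sup_left (α ⟨_, hd⟩) := haP ⟨_, hd⟩
      have e3 : (x : Ω)⁻¹ * (((a * κ * a⁻¹) x : ↥(P ⊔ X)) : Ω) = ((α ⟨_, hd⟩ : P) : Ω) := by
        rw [e, e2]
        show (x : Ω)⁻¹ * ((x : Ω) * ((α ⟨_, hd⟩ : P) : Ω)) = _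
        rw [inv_mul_cancel_left]
      rw [e3]
      exact hPT (α ⟨_, hd⟩).2
  have hga : g * a⁻¹ ∈ M := by
    refine ⟨(F.autGroup (P ⊔ X)).mul_mem hg ((F.autGroup (P ⊔ X)).inv_mem ha), ?_, ?_⟩
    · intro u hu
      rw [MulAut.mul_apply]
      have h1 : a⁻¹ u = Subgroup.inclusion le_sup_left (α⁻¹ ⟨u, hu⟩) := hainvP ⟨u, hu⟩
      rw [h1, hgP, MulAut.apply_inv_self]
      rfl
    · intro x hx
      rw [MulAut.mul_apply, hainvX x hx, hgψ]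
      exact hψT (Subgroup.inclusion hle x) (hX hx)
  obtain ⟨ν, hν, -, hgν⟩ := hC p n m hm M hMc hMe a g hMn ham hgm hga
  -- conclusion
  have hcX : c.1 ∈ P ⊔ X := Subgroup.mem_sup_right hc
  set x : ↥(P ⊔ X) := ⟨c.1, hcX⟩ with hxdef
  have hx : (x : Ω) ∈ X := hc
  have hd : ((x⁻¹ * ν x : ↥(P ⊔ X)) : Ω) ∈ P := (hK F T hTS P hPT hcen X hX ν hν x hx).1
  have hαd : α ⟨_, hd⟩ = ⟨_, hd⟩ := hJ X hX hXc ν hν α hα x hx ⟨_, hd⟩ rfl
  have had : a (x⁻¹ * ν x) = x⁻¹ * ν x := by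
    have e2 : a (x⁻¹ * ν x) = Subgroup.inclusion le_sup_left (α ⟨_, hd⟩) := haP ⟨_, hd⟩
    rw [e2, hαd]
    rfl
  have haν : a (ν x) = ν x := by
    have : ν x = x * (x⁻¹ * ν x) := (mul_inv_cancel_left _ _).symm
    rw [this, map_mul, haX x hx, had]
  have hgx : g x = x := by
    rw [hgν, MulAut.mul_apply, MulAut.mul_apply, haν, MulAut.inv_apply_self]
  apply Subtype.ext
  have h := hgψ x
  rw [hgx] at h
  exact h.symm

end Cfsg.Agent.Lib.Helper71.CEUFIX
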