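import Mathlib
import Cfsg.Agent.Lib.Helper88.CEStmt
import Cfsg.Agent.Lib.Helper88.FSBase
import Cfsg.Agent.H85.Invariant2
import Cfsg.Agent.Lib.Helper71.CEUFIX

/-! S5127 piece JCOM (helper71): the commutator step. -/

set_option autoImplicit false

namespace Cfsg.Agent.Lib.Helper71.CEJCOM

open Cfsg Cfsg.FusionSystem Cfsg.Agent.Lib.Helper88.CEStmt Cfsg.Agent.Lib.Helper88.FCStmt
open Cfsg.Agent.Lib.Helper88 Cfsg.Agent.Lib.Helper71.CEUFIX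

universe u

theorem inv_restrict {A B : Type*} [Group A] [Group B] (ι : A →* B) (f : MulAut A)
    (g : MulAut B) (h : ∀ x, g (ι x) = ι (f x)) : ∀ x, g⁻¹ (ι x) = ι (f⁻¹ x) := by
  intro x
  have h1 := h (f⁻¹ x)
  rw [MulAut.apply_inv_self] at h1
  rw [← h1, MulAut.inv_apply_self]

theorem inv_fix {A : Type*} [Group A] (f : MulAut A) (x : A) (h : f x = x) : f⁻¹ x = x := by
  have h1 := MulAut.inv_apply_self _ f x
  rw [h] at h1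
  exact h1

section

variable {Ω : Type u} [Group Ω] {S : Subgroup Ω}

/-- `(P X) ∩ T ≤ P` when `C_T(P) ≤ P ≤ T` and `X ≤ C_S(T)`. -/
theorem sup_inf_le (T P X : Subgroup Ω) (hPT : P ≤ T) (hcen : centralizerIn T P ≤ P)
    (hX : X ≤ centralizerIn S T) : ∀ y ∈ P ⊔ X, y ∈ T → y ∈ P := by
  intro y hy hyT
  have hLE : P ≤ Subgroup.normalizer (X : Set Ω) := by
    intro g hg
    have hc : ∀ h ∈ X, g * h * g⁻¹ = h := by
      intro h hh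
      have := Subgroup.mem_centralizer_iff.mp (hX hh).2 g (hPT hg)
      rw [this]
      group
    rw [Subgroup.mem_normalizer_iff]
    intro h
    constructor
    · intro hh
      rw [hc h hh]
      exact hh
    · intro hh
      have h1 := Subgroup.mem_centralizer_iff.mp (hX hh).2 g (hPT hg)
      have h2 : h = g * h * g⁻¹ := by
        calc h = g⁻¹ * ((g * h * g⁻¹) * g) := by group
          _ = g⁻¹ * (g * (g * h * g⁻¹)) := by rw [h1]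
          _ = g * h * g⁻¹ := by group
      rw [h2]
      exact hh
  have hy' : y ∈ ((P ⊔ X : Subgroup Ω) : Set Ω) := hy
  rw [Subgroup.coe_mul_of_left_le_normalizer_right P X hLE] at hy'
  obtain ⟨u, hu, x', hx', rfl⟩ := Set.mem_mul.mp hy'
  have hx'T : x' ∈ T := by
    have : x' = u⁻¹ * (u * x') := by group
    rw [this]
    exact T.mul_mem (T.inv_mem (hPT hu)) hyT
  have hx'P : x' ∈ P := by
    apply hcen
    refine Subgroup.mem_inf.mpr ⟨hx'T, ?_⟩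
    rw [Subgroup.mem_centralizer_iff]
    intro v hv
    exact Subgroup.mem_centralizer_iff.mp (hX hx').2 v (hPT hv)
  exact P.mul_mem hu hx'P

/-- The lift to `P X` fixing `X` of an element of `Aut_E(P)`, for `X` centralizing `E`. -/
theorem exists_lift [Finite S] (F : FusionSystem S) {T : Subgroup Ω} (E : FusionSystem T)
    (hTS : T ≤ S) (P : Subgroup Ω) (hPT : P ≤ T) (X : Subgroup Ω) (hXS : X ≤ S)
    (hXc : ECentral F E X) (α : MulAut P) (hα : α ∈ E.autGroup P) :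
    ∃ a ∈ F.autGroup (P ⊔ X),
      (∀ v : P, a (Subgroup.inclusion le_sup_left v) = Subgroup.inclusion le_sup_left (α v)) ∧
      ∀ y : ↥(P ⊔ X), (y : Ω) ∈ X → a y = y := by
  have hPS : P ≤ S := hPT.trans hTS
  have hPXS : P ⊔ X ≤ S := sup_le hPS hXS
  haveI : Finite ↥(P ⊔ X) := Finite.of_injective _ (Subgroup.inclusion_injective hPXS)
  have hαE : P.subtype.comp α.toMonoidHom ∈ E.Hom P := (FSBase.mem_autGroup_iff E hPT α).mp hα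
  obtain ⟨-, -, -, ψ', hψ', hψ'P, hψ'X⟩ := hXc P hαE
  have hψ'P' : ∀ (y : ↥(P ⊔ X)) (hy : (y : Ω) ∈ P), ψ' y = ((α ⟨y, hy⟩ : P) : Ω) :=
    fun y hy => hψ'P ⟨y, hy⟩
  have hψ'X' : ∀ (y : ↥(P ⊔ X)) (_ : (y : Ω) ∈ X), ψ' y = (y : Ω) :=
    fun y hy => hψ'X ⟨y, hy⟩
  have hv' : ∀ y : ↥(P ⊔ X), ψ' y ∈ P ⊔ X := by
    refine sup_top P X ((P ⊔ X).comap ψ') ?_ ?_
    · intro y hy
      show ψ' y ∈ P ⊔ X
      rw [hψ'P' y hy]
      exact Subgroup.mem_sup_left (α ⟨y, hy⟩).2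
    · intro y hy
      show ψ' y ∈ P ⊔ X
      rw [hψ'X' y hy]
      exact y.2
  obtain ⟨a, ha, haψ⟩ := FSBase.exists_aut_of_mem F hψ' (FSBase.range_eq_of_finite F hψ' hv')
  refine ⟨a, ha, ?_, ?_⟩
  · intro v
    apply Subtype.ext
    rw [haψ]
    exact hψ'P v
  · intro y hy
    apply Subtype.ext
    rw [haψ]
    exact hψ'X' y hy

end

theorem main : JCom.{u} := by
  intro Ω _ S _ p _ hS F hF T E hE P P₁ hPc hP₁c hPP₁ X hX hXc κ₁ hκ₁ hκ₁P hκ₁X α₁ hα₁ hα₁P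
    hJ x hx z hz
  have hT : F.StronglyClosed T := hE.1.2.2.2.1
  have hTS : T ≤ S := hT.1
  have hsub : E.IsSubsystemOf F := hE.1.2.2.1
  have hP₁T : P₁ ≤ T := hP₁c.1
  have hP₁S : P₁ ≤ S := hP₁T.trans hTS
  have hcen₁ : centralizerIn T P₁ ≤ P₁ := hP₁c.2 P₁ (FSBase.isConj_refl E hP₁T)
  have hXS : X ≤ S := hX.trans inf_le_left
  have hP₁XS : P₁ ⊔ X ≤ S := sup_le hP₁S hXS
  haveI : Finite P₁ := Finite.of_injective _ (Subgroup.inclusion_injective hP₁S)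
  haveI : Finite P := Finite.of_injective _ (Subgroup.inclusion_injective (hPP₁.trans hP₁S))
  -- the lift of `α₁`
  obtain ⟨a₁, ha₁, ha₁P, ha₁X⟩ := exists_lift F E hTS P₁ hP₁T X hXS hXc α₁ hα₁
  -- `α₁⁻¹` maps `P` into `P`
  have hαinvP : ∀ u : P₁, (u : Ω) ∈ P → ((α₁⁻¹ u : P₁) : Ω) ∈ P := by
    intro u hu
    let f : P → P := fun v => ⟨α₁ (Subgroup.inclusion hPP₁ v), hα₁P _ v.2⟩
    have hinj : Function.Injective f := by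
      intro v v' hvv
      have h0 : ((α₁ (Subgroup.inclusion hPP₁ v) : P₁) : Ω) =
          ((α₁ (Subgroup.inclusion hPP₁ v') : P₁) : Ω) := congrArg (fun w : P => (w : Ω)) hvv
      have h1 : α₁ (Subgroup.inclusion hPP₁ v) = α₁ (Subgroup.inclusion hPP₁ v') :=
        Subtype.ext h0
      exact Subgroup.inclusion_injective hPP₁ (α₁.injective h1)
    obtain ⟨v, hv⟩ := Finite.injective_iff_surjective.mp hinj ⟨u, hu⟩
    have h0 : ((α₁ (Subgroup.inclusion hPP₁ v) : P₁) : Ω) = (u : Ω) :=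
      congrArg (fun w : P => (w : Ω)) hv
    have h1 : α₁ (Subgroup.inclusion hPP₁ v) = u := Subtype.ext h0
    rw [← h1, MulAut.inv_apply_self]
    exact v.2
  -- the restriction `k'` of `κ₁` to `P₁`
  have hκF : (P₁ ⊔ X).subtype.comp κ₁.toMonoidHom ∈ F.Hom (P₁ ⊔ X) :=
    (FSBase.mem_autGroup_iff F hP₁XS κ₁).mp hκ₁
  have hk := FSBase.restrict_mem F (le_sup_left : P₁ ≤ P₁ ⊔ X) hκF
  set k : P₁ →* Ω :=
    ((P₁ ⊔ X).subtype.comp κ₁.toMonoidHom).comp (Subgroup.inclusion le_sup_left) with hkdef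
  have hkT : ∀ v : P₁, k v ∈ T := hT.2 P₁ hP₁T k hk
  have hkP₁ : ∀ v : P₁, k v ∈ P₁ := fun v =>
    sup_inf_le T P₁ X hP₁T hcen₁ hX (k v) (κ₁ (Subgroup.inclusion le_sup_left v)).2 (hkT v)
  obtain ⟨k', hk', hk'k⟩ := FSBase.exists_aut_of_mem F hk (FSBase.range_eq_of_finite F hk hkP₁)
  have hκincl : ∀ v : P₁, κ₁ (Subgroup.inclusion le_sup_left v) =
      Subgroup.inclusion le_sup_left (k' v) := by
    intro v
    apply Subtype.ext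
    exact (hk'k v).symm
  have hk'P : ∀ v : P₁, (v : Ω) ∈ P → k' v = v := by
    intro v hv
    apply Subtype.ext
    rw [hk'k]
    exact congrArg Subtype.val (hκ₁P (Subgroup.inclusion le_sup_left v) hv)
  -- `θ = k' α₁ k'⁻¹ ∈ Aut_E(P₁)`
  have hSI : H85.StrongInv E F := (H85.invariant_iff_strongInv p hS F hF E hsub hT).mp hE.1.2.2
  have hα₁E : P₁.subtype.comp α₁.toMonoidHom ∈ E.Hom P₁ :=
    (FSBase.mem_autGroup_iff E hP₁T α₁).mp hα₁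
  obtain ⟨χ, hχ, hχx⟩ := hSI P₁ P₁ le_rfl hP₁T (P₁.subtype.comp α₁.toMonoidHom) hα₁E
    (fun x => (α₁ x).2) k hk
  have hmap : (P₁.subgroupOf P₁).map k = P₁ := by
    ext y
    constructor
    · rintro ⟨v, -, rfl⟩
      exact hkP₁ v
    · intro hy
      refine ⟨k'⁻¹ ⟨y, hy⟩, Subgroup.mem_subgroupOf.mpr (k'⁻¹ ⟨y, hy⟩).2, ?_⟩
      rw [← hk'k, MulAut.apply_inv_self]
  obtain ⟨χ', hχ', hχ'x⟩ := FSBase.transport_mem E hmap hχ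
  have hχ'k : ∀ v : P₁, χ' (k' v) = ((k' (α₁ v) : P₁) : Ω) := by
    intro v
    have hmem : k v ∈ (P₁.subgroupOf P₁).map k := ⟨v, Subgroup.mem_subgroupOf.mpr v.2, rfl⟩
    have h1 := hχ'x (k v) hmem (hkP₁ v)
    have h2 := hχx v hmem
    have e : (k' v : P₁) = ⟨k v, hkP₁ v⟩ := Subtype.ext (hk'k v)
    rw [e, h1]
    rw [hk'k]
    exact h2
  have hχ'v : ∀ w : P₁, χ' w ∈ P₁ := by
    intro w
    have h1 := hχ'k (k'⁻¹ w)
    rw [MulAut.apply_inv_self] at h1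
    rw [h1]
    exact (k' _).2
  obtain ⟨θ, hθ, hθχ⟩ := FSBase.exists_aut_of_mem E hχ' (FSBase.range_eq_of_finite E hχ' hχ'v)
  have hθk : ∀ v : P₁, θ (k' v) = k' (α₁ v) := by
    intro v
    apply Subtype.ext
    rw [hθχ]
    exact hχ'k v
  -- `δ = θ α₁⁻¹` and its lift `d`
  have hδ : θ * α₁⁻¹ ∈ E.autGroup P₁ := (E.autGroup P₁).mul_mem hθ ((E.autGroup P₁).inv_mem hα₁)
  have hδP : ∀ v : P₁, (v : Ω) ∈ P → (θ * α₁⁻¹) v = v := by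
    intro v hv
    rw [MulAut.mul_apply]
    have h1 : k' (α₁⁻¹ v) = α₁⁻¹ v := hk'P _ (hαinvP v hv)
    have h2 := hθk (α₁⁻¹ v)
    rw [h1, MulAut.apply_inv_self, hk'P v hv] at h2
    exact h2
  obtain ⟨d, hd, hdP, hdX⟩ := exists_lift F E hTS P₁ hP₁T X hXS hXc (θ * α₁⁻¹) hδ
  have hdfix : ∀ y : ↥(P₁ ⊔ X), (y : Ω) ∈ P → d y = y := by
    intro y hy
    have h1 := hdP ⟨y, hPP₁ hy⟩
    rw [hδP ⟨y, hPP₁ hy⟩ hy] at h1
    exact h1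
  -- the commutator
  have hcP : ∀ v : P₁, (κ₁ * a₁ * κ₁⁻¹ * a₁⁻¹) (Subgroup.inclusion le_sup_left v) =
      d (Subgroup.inclusion le_sup_left v) := by
    intro v
    rw [MulAut.mul_apply, MulAut.mul_apply, MulAut.mul_apply,
      inv_restrict (Subgroup.inclusion le_sup_left) α₁ a₁ ha₁P v,
      inv_restrict (Subgroup.inclusion le_sup_left) k' κ₁ hκincl, ha₁P, hκincl, hdP,
      MulAut.mul_apply, ← hθk, MulAut.apply_inv_self]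
  have hform : ∀ x' : ↥(P₁ ⊔ X), (x' : Ω) ∈ X →
      (d⁻¹ * (κ₁ * a₁ * κ₁⁻¹ * a₁⁻¹)) x' =
        x' * ((x'⁻¹ * κ₁ x') * (a₁ (x'⁻¹ * κ₁ x'))⁻¹) ∧
      ((x'⁻¹ * κ₁ x' * (a₁ (x'⁻¹ * κ₁ x'))⁻¹ : ↥(P₁ ⊔ X)) : Ω) ∈ P := by
    intro x' hx'
    set ζ : ↥(P₁ ⊔ X) := x'⁻¹ * κ₁ x' with hζ
    have hζP : (ζ : Ω) ∈ P := hκ₁X x' hx'
    have hκζ : κ₁ ζ = ζ := hκ₁P ζ hζP
    have haζ : a₁ ζ = Subgroup.inclusion le_sup_left (α₁ ⟨ζ, hPP₁ hζP⟩) := ha₁P ⟨ζ, hPP₁ hζP⟩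
    have haζP : ((a₁ ζ : ↥(P₁ ⊔ X)) : Ω) ∈ P := by
      rw [haζ]
      exact hα₁P ⟨ζ, hPP₁ hζP⟩ hζP
    have hκaζ : κ₁ (a₁ ζ) = a₁ ζ := hκ₁P _ haζP
    have h1 : a₁⁻¹ x' = x' := inv_fix a₁ x' (ha₁X x' hx')
    have hκx : κ₁ x' = x' * ζ := (mul_inv_cancel_left _ _).symm
    have h2 : κ₁⁻¹ x' = x' * ζ⁻¹ := by
      have e : κ₁ (x' * ζ⁻¹) = x' := by
        rw [map_mul, map_inv, hκζ, hκx, mul_inv_cancel_right]
      have h3 := MulAut.inv_apply_self _ κ₁ (x' * ζ⁻¹)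
      rw [e] at h3
      exact h3
    have h3 : a₁ (x' * ζ⁻¹) = x' * (a₁ ζ)⁻¹ := by rw [map_mul, map_inv, ha₁X x' hx']
    have h4 : κ₁ (x' * (a₁ ζ)⁻¹) = x' * ζ * (a₁ ζ)⁻¹ := by rw [map_mul, map_inv, hκaζ, hκx]
    have hmemP : ((ζ * (a₁ ζ)⁻¹ : ↥(P₁ ⊔ X)) : Ω) ∈ P := P.mul_mem hζP (P.inv_mem haζP)
    have h5 : d⁻¹ (ζ * (a₁ ζ)⁻¹) = ζ * (a₁ ζ)⁻¹ := inv_fix d _ (hdfix _ hmemP)
    have h6 : d⁻¹ x' = x' := inv_fix d x' (hdX x' hx')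
    refine ⟨?_, hmemP⟩
    rw [MulAut.mul_apply, MulAut.mul_apply, MulAut.mul_apply, MulAut.mul_apply, h1, h2, h3, h4,
      mul_assoc, map_mul, h5, h6]
  have hκ'K : IsK F T P₁ X (d⁻¹ * (κ₁ * a₁ * κ₁⁻¹ * a₁⁻¹)) := by
    refine ⟨?_, ?_, ?_⟩
    · refine (F.autGroup (P₁ ⊔ X)).mul_mem ((F.autGroup (P₁ ⊔ X)).inv_mem hd) ?_
      exact (F.autGroup (P₁ ⊔ X)).mul_mem ((F.autGroup (P₁ ⊔ X)).mul_mem
        ((F.autGroup (P₁ ⊔ X)).mul_mem hκ₁ ha₁) ((F.autGroup (P₁ ⊔ X)).inv_mem hκ₁))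
        ((F.autGroup (P₁ ⊔ X)).inv_mem ha₁)
    · intro u hu
      have h1 := hcP ⟨u, hu⟩
      rw [MulAut.mul_apply]
      have h2 : (κ₁ * a₁ * κ₁⁻¹ * a₁⁻¹) u = d u := h1
      rw [h2, MulAut.inv_apply_self]
    · intro x' hx'
      obtain ⟨h1, h2⟩ := hform x' hx'
      rw [h1]
      have e : ((x' : Ω))⁻¹ * ((x' * ((x'⁻¹ * κ₁ x') * (a₁ (x'⁻¹ * κ₁ x'))⁻¹) : ↥(P₁ ⊔ X)) : Ω) =
          ((x'⁻¹ * κ₁ x' * (a₁ (x'⁻¹ * κ₁ x'))⁻¹ : ↥(P₁ ⊔ X)) : Ω) := by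
        show (x' : Ω)⁻¹ * ((x' : Ω) *
          ((x'⁻¹ * κ₁ x' * (a₁ (x'⁻¹ * κ₁ x'))⁻¹ : ↥(P₁ ⊔ X)) : Ω)) = _
        rw [inv_mul_cancel_left]
      rw [e]
      exact hP₁T (hPP₁ h2)
  -- conclusion
  have hζz : x⁻¹ * κ₁ x = Subgroup.inclusion le_sup_left z := Subtype.ext hz.symm
  have hw : ((z * (α₁ z)⁻¹ : P₁) : Ω) =
      (x : Ω)⁻¹ * (((d⁻¹ * (κ₁ * a₁ * κ₁⁻¹ * a₁⁻¹)) x : ↥(P₁ ⊔ X)) : Ω) := by
    rw [(hform x hx).1, hζz, ha₁P]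
    show _ = (x : Ω)⁻¹ * ((x : Ω) * ((z : Ω) * ((α₁ z : P₁) : Ω)⁻¹))
    rw [inv_mul_cancel_left]
    rfl
  exact hJ X hX hXc _ hκ'K α₁ hα₁ x hx (z * (α₁ z)⁻¹) hw

end Cfsg.Agent.Lib.Helper71.CEJCOM
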