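import Mathlib
import Cfsg.Agent.Lib.Helper30.CTIStmt
import Cfsg.Agent.S0008

/-!
# S4064, piece ENGEL: if every element commutes with all its conjugates, the group is nilpotent

The normal closure of each element is abelian and normal, hence inside the Fitting subgroup,
which is nilpotent (S0008).
-/

set_option autoImplicit false
set_option linter.style.haveILetI false

namespace Cfsg.Agent.Lib.Helper71.CTIENGEL

universe u

theorem main : Cfsg.Agent.Lib.Helper30.CTIStmt.ENGEL.{u} := by
  intro G _ _ h
  have hx : ∀ x : G, x ∈ Cfsg.fittingSubgroup G := by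
    intro x
    have hcomm : ∀ a ∈ Group.conjugatesOfSet ({x} : Set G),
        ∀ b ∈ Group.conjugatesOfSet ({x} : Set G), a * b = b * a := by
      intro a ha b hb
      rw [Group.mem_conjugatesOfSet_iff] at ha hb
      obtain ⟨x1, hx1, ha⟩ := ha
      obtain ⟨x2, hx2, hb⟩ := hb
      rw [Set.mem_singleton_iff] at hx1 hx2
      rw [hx1] at ha
      rw [hx2] at hb
      rw [isConj_iff] at ha hb
      obtain ⟨g, rfl⟩ := ha
      obtain ⟨k, rfl⟩ := hb
      have h1 := h x (g⁻¹ * k)
      have h2 : g * x * g⁻¹ * (k * x * k⁻¹)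
          = g * (x * ((g⁻¹ * k) * x * (g⁻¹ * k)⁻¹)) * g⁻¹ := by group
      have h3 : k * x * k⁻¹ * (g * x * g⁻¹)
          = g * (((g⁻¹ * k) * x * (g⁻¹ * k)⁻¹) * x) * g⁻¹ := by group
      rw [h2, h3, h1.eq]
    have hle : Subgroup.normalClosure ({x} : Set G) ≤ Cfsg.fittingSubgroup G := by
      apply le_sSup
      refine ⟨Subgroup.normalClosure_normal, ?_⟩
      letI : CommGroup ↥(Subgroup.normalClosure ({x} : Set G)) :=
        { (inferInstance : Group ↥(Subgroup.normalClosure ({x} : Set G))) with
          mul_comm := by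
            have hc : IsMulCommutative ↥(Subgroup.closure (Group.conjugatesOfSet ({x} : Set G))) :=
              Subgroup.isMulCommutative_closure hcomm
            intro a b
            exact hc.is_comm.comm a b }
      exact CommGroup.isNilpotent
    exact hle (Subgroup.subset_normalClosure (Set.mem_singleton x))
  have htop : Cfsg.fittingSubgroup G = ⊤ := by
    rw [eq_top_iff]
    intro x _
    exact hx x
  have hnil : Group.IsNilpotent ↥(Cfsg.fittingSubgroup G) := Cfsg.Agent.S0008.result
  rw [htop] at hnil
  exact Group.nilpotent_of_mulEquiv (Subgroup.topEquiv : (⊤ : Subgroup G) ≃* G)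

end Cfsg.Agent.Lib.Helper71.CTIENGEL
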