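import Mathlib
import Cfsg.Agent.Lib.Helper40.GFStmt

/-!
# S5886, piece `RANK1` (second seat): rank one gives `T ∈ c.M` with
`T (a • v) = (a + b a • (f • e)) • v` and `T x - x ∈ L v + F p`.
-/

set_option autoImplicit false

namespace Cfsg.Agent.Lib.Helper71.GFRANK1

open Cfsg.Agent.Lib.Helper40.GFStmt

universe u

theorem finrank_comap_inj {F A B : Type u} [Field F] [AddCommGroup A] [Module F A]
    [AddCommGroup B] [Module F B] (f : A →ₗ[F] B) (hf : Function.Injective f)
    (X : Submodule F B) :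
    Module.finrank F ↥(X.comap f) = Module.finrank F ↥(LinearMap.range f ⊓ X) := by
  rw [← Submodule.map_comap_eq]
  exact (Submodule.equivMapOfInjective f hf (X.comap f)).finrank_eq

/-- a subspace of codimension one and a vector outside it span everything -/
theorem sup_span_eq_top {F A : Type u} [Field F] [AddCommGroup A] [Module F A]
    [FiniteDimensional F A] (K : Submodule F A)
    (hK : Module.finrank F ↥K + 1 = Module.finrank F A) {a : A} (ha : a ∉ K) :
    ∀ x : A, ∃ κ ∈ K, ∃ s : F, x = κ + s • a := by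
  have hlt : K < K ⊔ Submodule.span F {a} := by
    refine lt_of_le_of_ne le_sup_left (fun h => ha ?_)
    have h1 : a ∈ K ⊔ Submodule.span F {a} :=
      (le_sup_right : Submodule.span F {a} ≤ K ⊔ Submodule.span F {a})
        (Submodule.mem_span_singleton_self a)
    rw [← h] at h1
    exact h1
  have h1 := Submodule.finrank_lt_finrank_of_lt hlt
  have h2 : K ⊔ Submodule.span F {a} = ⊤ := by
    apply Submodule.eq_top_of_finrank_eq
    have h3 := Submodule.finrank_le (K ⊔ Submodule.span F {a})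
    omega
  intro x
  have hx : x ∈ K ⊔ Submodule.span F {a} := by
    rw [h2]
    exact Submodule.mem_top
  obtain ⟨κ, hκ, t, ht, rfl⟩ := Submodule.mem_sup.1 hx
  obtain ⟨s, rfl⟩ := Submodule.mem_span_singleton.1 ht
  exact ⟨κ, hκ, s, rfl⟩

theorem main (hSep : Sep.{u}) : Rank1.{u} := by
  intro F L _ _ _ _ k c hr g hg w v hv hrk
  let Φw : L →ₗ[F] V k L := (LinearMap.toSpanSingleton L (V k L) w).restrictScalars F
  let Φv : L →ₗ[F] V k L := (LinearMap.toSpanSingleton L (V k L) v).restrictScalars F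
  have hΦw : ∀ a, Φw a = a • w := fun a => rfl
  have hΦv : ∀ a, Φv a = a • v := fun a => rfl
  let gl : V k L →ₗ[F] V k L := (g : V k L →ₗ[F] V k L)
  have hgl : ∀ x, gl x = g x := fun x => rfl
  let LV : Submodule F (V k L) := LinearMap.range Φv
  let LW : Submodule F (V k L) := LinearMap.range Φw
  have hZ : Zsub g w v = (LV.comap gl).comap Φw := by
    ext a
    rw [mem_Zsub, Submodule.mem_comap, Submodule.mem_comap, LinearMap.mem_range]
    constructor
    · rintro ⟨a', h⟩
      exact ⟨a', h.symm⟩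
    · rintro ⟨a', h⟩
      exact ⟨a', h.symm⟩
  have hw : w ≠ 0 := by
    rintro rfl
    have htop : Zsub g (0 : V k L) v = ⊤ := by
      rw [eq_top_iff]
      intro a _
      exact ⟨0, by rw [smul_zero, map_zero, zero_smul]⟩
    unfold rk at hrk
    rw [htop, finrank_top] at hrk
    omega
  have hΦw_inj : Function.Injective Φw := smul_left_injective L hw
  have hΦv_inj : Function.Injective Φv := smul_left_injective L hv
  let Ψ : L →ₗ[F] V k L := (g.symm : V k L →ₗ[F] V k L) ∘ₗ Φv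
  have hΨ : ∀ a, Ψ a = g.symm (a • v) := fun a => rfl
  have hΨ_inj : Function.Injective Ψ := g.symm.injective.comp hΦv_inj
  let K₀ : Submodule F L := LW.comap Ψ
  have hrangeΨ : LinearMap.range Ψ = LV.comap gl := by
    ext y
    rw [LinearMap.mem_range, Submodule.mem_comap, LinearMap.mem_range]
    constructor
    · rintro ⟨a, rfl⟩
      refine ⟨a, ?_⟩
      rw [hΦv, hgl, hΨ, LinearEquiv.apply_symm_apply]
    · rintro ⟨a, h⟩
      refine ⟨a, ?_⟩
      rw [hΨ, ← hΦv, h, hgl, LinearEquiv.symm_apply_apply]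
  have hdimZ : Module.finrank F ↥(Zsub g w v) = Module.finrank F ↥(LW ⊓ LV.comap gl) := by
    rw [hZ]
    exact finrank_comap_inj Φw hΦw_inj _
  have hdimK : Module.finrank F ↥K₀ = Module.finrank F ↥(LW ⊓ LV.comap gl) := by
    have h1 := finrank_comap_inj Ψ hΨ_inj LW
    rw [hrangeΨ, inf_comm] at h1
    exact h1
  have hZle := Submodule.finrank_le (Zsub g w v)
  have hZr : Module.finrank F ↥(Zsub g w v) + 1 = Module.finrank F L := by
    unfold rk at hrk
    omega
  have hKr : Module.finrank F ↥K₀ + 1 = Module.finrank F L := by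
    rw [hdimK, ← hdimZ]
    exact hZr
  obtain ⟨a₀, ha₀⟩ : ∃ a₀ : L, a₀ ∉ K₀ := by
    by_contra hcon
    have htop : K₀ = ⊤ := by
      rw [eq_top_iff]
      intro a _
      by_contra h
      exact hcon ⟨a, h⟩
    rw [htop, finrank_top] at hKr
    omega
  obtain ⟨a₁, ha₁⟩ : ∃ a₁ : L, a₁ ∉ Zsub g w v := by
    by_contra hcon
    have htop : Zsub g w v = ⊤ := by
      rw [eq_top_iff]
      intro a _
      by_contra h
      exact hcon ⟨a, h⟩
    rw [htop, finrank_top] at hZr
    omega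
  obtain ⟨z₀, hz₀Z, hz₀⟩ : ∃ z₀ ∈ Zsub g w v, z₀ ≠ 0 := by
    by_contra hcon
    have hbot : Zsub g w v = ⊥ := by
      rw [eq_bot_iff]
      intro a ha
      rw [Submodule.mem_bot]
      by_contra h
      exact hcon ⟨a, ha, h⟩
    rw [hbot, finrank_bot] at hZr
    omega
  obtain ⟨e, he⟩ := (mem_Zsub g w v z₀).1 hz₀Z
  have he0 : e ≠ 0 := by
    rintro rfl
    rw [zero_smul] at he
    have h1 : z₀ • w = 0 := g.injective (by rw [he, map_zero])
    rcases smul_eq_zero.1 h1 with h | h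
    · exact hz₀ h
    · exact hw h
  have hy₁ : ∀ a : L, g.symm (a₀ • v) ≠ a • w := by
    intro a h
    apply ha₀
    show Ψ a₀ ∈ LW
    exact ⟨a, by rw [hΦw, hΨ, h]⟩
  obtain ⟨φ, hφw, hφy⟩ := hSep L k w (g.symm (a₀ • v)) hy₁
  let β : L →ₗ[F] L := (φ.restrictScalars F) ∘ₗ Ψ
  have hβ : ∀ a, β a = φ (g.symm (a • v)) := fun a => rfl
  have hβK : ∀ κ ∈ K₀, β κ = 0 := by
    intro κ hκ
    obtain ⟨a'', ha''⟩ := hκ
    rw [hβ, ← hΨ, ← ha'', hΦw, map_smul, hφw, smul_zero]
  obtain ⟨b₀, hb₀a, hb₀K⟩ := Submodule.exists_le_ker_of_notMem ha₀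
  let b : L →ₗ[F] F := (b₀ a₀)⁻¹ • b₀
  have hb : ∀ a, b a = (b₀ a₀)⁻¹ * b₀ a := fun a => rfl
  have hba₀ : b a₀ = 1 := by
    rw [hb, inv_mul_cancel₀ hb₀a]
  have hbK : ∀ κ ∈ K₀, b κ = 0 := by
    intro κ hκ
    rw [hb, LinearMap.mem_ker.1 (hb₀K hκ), mul_zero]
  have hdec := sup_span_eq_top K₀ hKr ha₀
  have hβb : ∀ a, β a = b a • φ (g.symm (a₀ • v)) := by
    intro a
    obtain ⟨κ, hκ, s, rfl⟩ := hdec a
    rw [map_add, map_smul, hβK κ hκ, zero_add, map_add, map_smul, hbK κ hκ, zero_add, hba₀,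
      smul_eq_mul, mul_one, hβ]
  have hb0 : b ≠ 0 := by
    intro h
    rw [h, LinearMap.zero_apply] at hba₀
    exact zero_ne_one hba₀
  have hbe : b e = 0 := by
    apply hbK
    show Ψ e ∈ LW
    exact ⟨z₀, by rw [hΦw, hΨ, ← he, LinearEquiv.symm_apply_apply]⟩
  have hdecZ := sup_span_eq_top (Zsub g w v) hZr ha₁
  have hgLw : ∀ a : L, ∃ (a' : L) (s : F), g (a • w) = a' • v + s • g (a₁ • w) := by
    intro a
    obtain ⟨z, hz, s, rfl⟩ := hdecZ a
    obtain ⟨a', ha'⟩ := (mem_Zsub g w v z).1 hz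
    exact ⟨a', s, by rw [add_smul, map_add, ha', smul_assoc, map_smul]⟩
  refine ⟨e, b, g (a₁ • w), he0, hb0, hbe, ?_⟩
  intro f
  have h0 : ((f • (z₀ / φ (g.symm (a₀ • v)))) • φ) w = 0 := by
    rw [LinearMap.smul_apply, hφw, smul_zero]
  have hτM := mem_tv c _ w h0
  have hτx : ∀ x, ((LinearEquiv.transvection h0).restrictScalars F) x
      = x + ((f • (z₀ / φ (g.symm (a₀ • v)))) * φ x) • w := by
    intro x
    show (LinearEquiv.transvection h0) x = _
    rw [LinearEquiv.transvection.apply, LinearMap.smul_apply, smul_eq_mul]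
  have hT : ∀ x, (g * ((LinearEquiv.transvection h0).restrictScalars F) * g⁻¹) x
      = x + g (((f • (z₀ / φ (g.symm (a₀ • v)))) * φ (g.symm x)) • w) := by
    intro x
    have h1 : (g * ((LinearEquiv.transvection h0).restrictScalars F) * g⁻¹) x
        = g (((LinearEquiv.transvection h0).restrictScalars F) (g.symm x)) := rfl
    rw [h1, hτx, map_add, LinearEquiv.apply_symm_apply]
  refine ⟨g * ((LinearEquiv.transvection h0).restrictScalars F) * g⁻¹,
    c.M.mul_mem (c.M.mul_mem hg hτM) (c.M.inv_mem hg), ?_, ?_⟩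
  · intro a
    have hβa : φ (g.symm (a • v)) = b a • φ (g.symm (a₀ • v)) := by
      rw [← hβ a]
      exact hβb a
    rw [hT, hβa, add_smul]
    congr 1
    have h2' : ∀ i : L, i ≠ 0 → (f • (z₀ / i)) * (b a • i) = (f * b a) • z₀ := by
      intro i hi
      rw [Algebra.smul_def, Algebra.smul_def, Algebra.smul_def, map_mul]
      field_simp
    have h2 := h2' _ hφy
    have h3 : (b a • (f • e)) • v = (f * b a) • (e • v) := by
      rw [smul_smul, smul_assoc, mul_comm]
    rw [h2, smul_assoc, map_smul, he, h3]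
  · intro x
    obtain ⟨a', s, h⟩ := hgLw ((f • (z₀ / φ (g.symm (a₀ • v)))) * φ (g.symm x))
    exact ⟨a', s, by rw [hT, add_sub_cancel_left, h]⟩

end Cfsg.Agent.Lib.Helper71.GFRANK1
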