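import Mathlib
import Cfsg.Agent.Lib.Helper40.GFStmt

/-!
# S5886, piece `Z1B` (third seat)

Uniform proof: normalize `h₁ = k₁ * h * k₂` so that the invariant line is `L e₁`;
`h₁ (s, t) = (A s + X t, D t)`.  Either some conjugate of a transvection is `E(A m_a D⁻¹)` with
`A m_a D⁻¹` not a multiplication, or `A (a y) = κ a * D y` for all `a, y`; then the commutator
with a dilation is `E(ν₃)`, and `ν₃` is a multiplication only if `h₁` is line preserving.
-/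

set_option autoImplicit false

namespace Cfsg.Agent.Lib.Helper71.GFZ1B

open Cfsg.Agent.Lib.Helper40.GFStmt

universe u

section

variable {L : Type u} [Field L]

/-- the first basis vector -/
def e₁ : V 2 L := ![1, 0]

/-- the second basis vector -/
def e₂ : V 2 L := ![0, 1]

theorem decomp (x : V 2 L) : x = x 0 • (e₁ : V 2 L) + x 1 • (e₂ : V 2 L) := by
  funext i
  fin_cases i <;> simp [e₁, e₂]

/-- the dilation `(s, t) ↦ (s, l t)` as a linear map -/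
def dilMap (l : L) : V 2 L →ₗ[L] V 2 L where
  toFun x := ![x 0, l * x 1]
  map_add' x y := by
    funext i
    fin_cases i <;> simp [mul_add]
  map_smul' a x := by
    funext i
    fin_cases i <;> simp [mul_left_comm]

/-- the dilation `(s, t) ↦ (s, l t)` -/
def dil (l : L) (hl : l ≠ 0) : V 2 L ≃ₗ[L] V 2 L :=
  LinearEquiv.ofLinearMap (dilMap l) (dilMap l⁻¹)
    (LinearMap.ext fun x => funext fun i => by
      fin_cases i <;> simp [dilMap, hl])
    (LinearMap.ext fun x => funext fun i => by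
      fin_cases i <;> simp [dilMap, hl])

theorem dil_zero (l : L) (hl : l ≠ 0) (x : V 2 L) : (dil l hl x) 0 = x 0 := rfl

theorem dil_one (l : L) (hl : l ≠ 0) (x : V 2 L) : (dil l hl x) 1 = l * x 1 := rfl

end

theorem main (hT : GLTrans.{u}) : Z1B.{u} := by
  intro F L _ _ _ _ c hF hr h hh hnl x₀ hx₀ hline
  haveI : Module.Finite F L := Module.Finite.of_finite
  have hF1 : ∀ z : F, z ≠ 0 → z = 1 := by
    intro z hz
    obtain ⟨y, hy, huniq⟩ := (Nat.card_eq_two_iff' (0 : F)).1 hF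
    rw [huniq z hz, huniq 1 one_ne_zero]
  have hGL : ∀ k : V 2 L ≃ₗ[L] V 2 L, k.restrictScalars F ∈ c.M := by
    intro k
    apply c.hsub
    apply hF1
    rw [Algebra.norm_ne_zero_iff]
    exact (LinearEquiv.isUnit_det' k).ne_zero
  have he₁ : (e₁ : V 2 L) ≠ 0 := by
    intro h0
    have h1 := congrFun h0 0
    simp [e₁] at h1
  obtain ⟨k₂, hk₂⟩ := hT L 2 e₁ x₀ he₁ hx₀
  have hhx₀ : h x₀ ≠ 0 := by
    intro h0
    exact hx₀ (h.injective (by rw [h0, map_zero]))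
  obtain ⟨k₁, hk₁⟩ := hT L 2 (h x₀) e₁ hhx₀ he₁
  have hh₁M : k₁.restrictScalars F * h * k₂.restrictScalars F ∈ c.M :=
    c.M.mul_mem (c.M.mul_mem (hGL k₁) hh) (hGL k₂)
  obtain ⟨h₁, hh₁def⟩ : ∃ h₁ : V 2 L ≃ₗ[F] V 2 L,
      h₁ = k₁.restrictScalars F * h * k₂.restrictScalars F := ⟨_, rfl⟩
  rw [← hh₁def] at hh₁M
  have hh₁x : ∀ x, h₁ x = k₁ (h (k₂ x)) := fun x => by
    rw [hh₁def]
    rfl
  have H1 : ∀ s : L, ∃ s' : L, h₁ (s • (e₁ : V 2 L)) = s' • (e₁ : V 2 L) := by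
    intro s
    obtain ⟨s', hs'⟩ := hline s
    exact ⟨s', by rw [hh₁x, map_smul, hk₂, hs', map_smul, hk₁]⟩
  have H2 : ¬ ∀ x, LineAt h₁ x := by
    intro hall
    apply hnl
    intro x a
    obtain ⟨a', ha'⟩ := hall (k₂.symm x) a
    refine ⟨a', k₁.injective ?_⟩
    rw [hh₁x, hh₁x, map_smul, LinearEquiv.apply_symm_apply] at ha'
    rw [ha', map_smul]
  let ι₁ : L →ₗ[F] V 2 L := (LinearMap.toSpanSingleton L (V 2 L) e₁).restrictScalars F
  let ι₂ : L →ₗ[F] V 2 L := (LinearMap.toSpanSingleton L (V 2 L) e₂).restrictScalars F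
  let p₀ : V 2 L →ₗ[F] L := (LinearMap.proj 0 : V 2 L →ₗ[L] L).restrictScalars F
  let p₁ : V 2 L →ₗ[F] L := (LinearMap.proj 1 : V 2 L →ₗ[L] L).restrictScalars F
  obtain ⟨A, hA⟩ : ∃ A : L →ₗ[F] L, ∀ s, A s = (h₁ (s • (e₁ : V 2 L))) 0 :=
    ⟨p₀ ∘ₗ (h₁ : V 2 L →ₗ[F] V 2 L) ∘ₗ ι₁, fun s => rfl⟩
  obtain ⟨X, hX⟩ : ∃ X : L →ₗ[F] L, ∀ t, X t = (h₁ (t • (e₂ : V 2 L))) 0 :=
    ⟨p₀ ∘ₗ (h₁ : V 2 L →ₗ[F] V 2 L) ∘ₗ ι₂, fun s => rfl⟩
  obtain ⟨D, hD⟩ : ∃ D : L →ₗ[F] L, ∀ t, D t = (h₁ (t • (e₂ : V 2 L))) 1 :=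
    ⟨p₁ ∘ₗ (h₁ : V 2 L →ₗ[F] V 2 L) ∘ₗ ι₂, fun s => rfl⟩
  clear_value ι₁ ι₂ p₀ p₁
  have hAe : ∀ s, h₁ (s • (e₁ : V 2 L)) = A s • (e₁ : V 2 L) := by
    intro s
    obtain ⟨s', hs'⟩ := H1 s
    rw [hA, hs']
    simp [e₁]
  have hXD : ∀ t, h₁ (t • (e₂ : V 2 L)) = X t • (e₁ : V 2 L) + D t • (e₂ : V 2 L) :=
    fun t => by
      rw [hX, hD]
      exact decomp _
  have hh₁ : ∀ y : V 2 L,
      h₁ y = (A (y 0) + X (y 1)) • (e₁ : V 2 L) + D (y 1) • (e₂ : V 2 L) := by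
    intro y
    conv_lhs => rw [decomp y]
    rw [map_add, hAe, hXD, add_smul]
    abel
  have hh₁0 : ∀ y, (h₁ y) 0 = A (y 0) + X (y 1) := by
    intro y
    rw [hh₁]
    simp [e₁, e₂]
  have hh₁1 : ∀ y, (h₁ y) 1 = D (y 1) := by
    intro y
    rw [hh₁]
    simp [e₁, e₂]
  have hAinj : Function.Injective A := by
    rw [← LinearMap.ker_eq_bot, LinearMap.ker_eq_bot']
    intro s hs
    have h0 : h₁ (s • (e₁ : V 2 L)) = 0 := by rw [hAe, hs, zero_smul]
    have h1 : s • (e₁ : V 2 L) = 0 := h₁.injective (by rw [h0, map_zero])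
    have h2 := congrFun h1 0
    simpa [e₁] using h2
  have hAsurj : Function.Surjective A := LinearMap.surjective_of_injective hAinj
  have hDinj : Function.Injective D := by
    rw [← LinearMap.ker_eq_bot, LinearMap.ker_eq_bot']
    intro t ht
    obtain ⟨s, hs⟩ := hAsurj (X t)
    have h0 : h₁ (s • (e₁ : V 2 L)) = h₁ (t • (e₂ : V 2 L)) := by
      rw [hAe, hXD, hs, ht, zero_smul, add_zero]
    have h1 := congrFun (h₁.injective h0) 1
    simpa [e₁, e₂] using h1.symm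
  obtain ⟨De, hDe⟩ : ∃ De : L ≃ₗ[F] L, ∀ t, De t = D t :=
    ⟨LinearEquiv.ofInjectiveEndo D hDinj, fun t => by rw [LinearEquiv.coe_ofInjectiveEndo]⟩
  have hDsymm : ∀ t, De.symm (D t) = t := fun t => by
    rw [← hDe, LinearEquiv.symm_apply_apply]
  let ψ : V 2 L →ₗ[L] L := LinearMap.proj 1
  have hψx : ∀ x : V 2 L, ψ x = x 1 := fun x => rfl
  have hψe : ψ (e₁ : V 2 L) = 0 := by
    rw [hψx]
    simp [e₁]
  have hψ0 : ψ ≠ 0 := by
    intro h0
    have h1 : ψ (e₂ : V 2 L) = 0 := by rw [h0, LinearMap.zero_apply]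
    rw [hψx] at h1
    simp [e₂] at h1
  have hStepA : ∀ a : L,
      InSig c (e₁ : V 2 L) ψ (A ∘ₗ LinearMap.mulLeft F a ∘ₗ (De.symm : L →ₗ[F] L)) := by
    intro a
    obtain ⟨τ, hτM, hτx⟩ := inSig_mulLeft c (e₁ : V 2 L) ψ hψe a
    refine ⟨h₁ * τ * h₁⁻¹, c.M.mul_mem (c.M.mul_mem hh₁M hτM) (c.M.inv_mem hh₁M), fun x => ?_⟩
    have hx : (h₁ * τ * h₁⁻¹) x = h₁ (τ (h₁.symm x)) := rfl
    have hxy : x = h₁ (h₁.symm x) := (LinearEquiv.apply_symm_apply h₁ x).symm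
    generalize h₁.symm x = y at hx hxy
    subst hxy
    rw [hx, hτx, map_add, hAe]
    show h₁ y + A (a * y 1) • (e₁ : V 2 L) = h₁ y + A (a * De.symm ((h₁ y) 1)) • (e₁ : V 2 L)
    rw [hh₁1, hDsymm]
  by_cases hmul : ∃ a : L, ∀ c' : L,
      (A ∘ₗ LinearMap.mulLeft F a ∘ₗ (De.symm : L →ₗ[F] L)) ≠ LinearMap.mulLeft F c'
  · obtain ⟨a, ha⟩ := hmul
    exact ⟨e₁, ψ, _, he₁, hψ0, hψe, ha, hStepA a⟩
  · have hall : ∀ a : L, ∃ c' : L, ∀ y : L, A (a * y) = c' * D y := by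
      intro a
      by_contra hcon
      apply hmul
      refine ⟨a, fun c' hc' => hcon ⟨c', fun y => ?_⟩⟩
      have h1 := LinearMap.congr_fun hc' (D y)
      rw [LinearMap.comp_apply, LinearMap.comp_apply, LinearMap.mulLeft_apply,
        LinearMap.mulLeft_apply, LinearEquiv.coe_coe, hDsymm] at h1
      exact h1
    choose κ hκ using hall
    have hκ1 : κ 1 ≠ 0 := by
      intro h0
      have h1 := hκ 1 1
      rw [h0, zero_mul, mul_one] at h1
      exact one_ne_zero (hAinj (h1.trans (map_zero A).symm))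
    have hAD : ∀ y, A y = κ 1 * D y := fun y => by
      have h1 := hκ 1 y
      rwa [one_mul] at h1
    have hDμ : ∀ a y, D (a * y) = (κ a / κ 1) * D y := by
      intro a y
      have h1 := hκ a y
      rw [hAD] at h1
      rw [div_mul_eq_mul_div, eq_div_iff hκ1]
      linear_combination h1
    have hAμ : ∀ a y, A (a * y) = (κ a / κ 1) * A y := by
      intro a y
      rw [hκ a y, hAD y]
      field_simp
    obtain ⟨l, hl⟩ : ∃ l : L, l ∉ Submodule.span F {(1 : L)} := by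
      by_contra hcon
      have htop : Submodule.span F {(1 : L)} = ⊤ := by
        rw [eq_top_iff]
        intro a _
        by_contra h'
        exact hcon ⟨a, h'⟩
      have h1 := finrank_span_singleton (K := F) (one_ne_zero : (1 : L) ≠ 0)
      rw [htop, finrank_top, hr] at h1
      omega
    have hl0 : l ≠ 0 := by
      intro h0
      apply hl
      rw [h0]
      exact Submodule.zero_mem _
    have hl1 : l ≠ 1 := by
      intro h1
      apply hl
      rw [h1]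
      exact Submodule.mem_span_singleton_self 1
    have hl1' : l - 1 ≠ 0 := sub_ne_zero.2 hl1
    have hm0 : κ l / κ 1 ≠ 0 := by
      intro h0
      have h1 := hDμ l 1
      rw [h0, zero_mul, mul_one] at h1
      exact hl0 (hDinj (h1.trans (map_zero D).symm))
    obtain ⟨m, hm⟩ : ∃ m : L, m = κ l / κ 1 := ⟨_, rfl⟩
    rw [← hm] at hm0
    obtain ⟨ν₃, hν₃⟩ : ∃ ν₃ : L →ₗ[F] L, ν₃ = X ∘ₗ LinearMap.mulLeft F (l - 1) ∘ₗ
        (De.symm : L →ₗ[F] L) ∘ₗ LinearMap.mulLeft F m⁻¹ := ⟨_, rfl⟩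
    have hν₃x : ∀ t, ν₃ t = X ((l - 1) * De.symm (m⁻¹ * t)) := fun t => by
      rw [hν₃]
      rfl
    have hν : ∀ t : L, ν₃ (m * D t) = X ((l - 1) * t) := by
      intro t
      rw [hν₃x, inv_mul_cancel_left₀ hm0, hDsymm]
    have hν3 : ∀ c' : L, ν₃ ≠ LinearMap.mulLeft F c' := by
      intro c' hc'
      apply H2
      have hXD' : ∀ y : L, X y = (c' * m * (κ ((l - 1)⁻¹) / κ 1)) * D y := by
        intro y
        have h1 : ν₃ (m * D ((l - 1)⁻¹ * y)) = c' * (m * D ((l - 1)⁻¹ * y)) := by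
          rw [hc']
          rfl
        rw [hν, mul_inv_cancel_left₀ hl1', hDμ] at h1
        rw [h1]
        ring
      intro x a
      refine ⟨κ a / κ 1, ?_⟩
      have ha0 : (a • x) 0 = a * x 0 := rfl
      have ha1 : (a • x) 1 = a * x 1 := rfl
      rw [hh₁, hh₁, ha0, ha1, hAμ, hXD' (a * x 1), hDμ, hXD' (x 1), smul_add, smul_smul,
        smul_smul]
      congr 1
      congr 1
      ring
    refine ⟨e₁, ψ, ν₃, he₁, hψ0, hψe, hν3, ?_⟩
    refine ⟨h₁ * (dil l hl0).restrictScalars F * h₁⁻¹ * ((dil m hm0).restrictScalars F)⁻¹,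
      c.M.mul_mem (c.M.mul_mem (c.M.mul_mem hh₁M (hGL _)) (c.M.inv_mem hh₁M))
        (c.M.inv_mem (hGL _)), fun x => ?_⟩
    have hx : (h₁ * (dil l hl0).restrictScalars F * h₁⁻¹ * ((dil m hm0).restrictScalars F)⁻¹) x
        = h₁ ((dil l hl0) (h₁.symm ((dil m hm0).symm x))) := rfl
    have hxy : x = (dil m hm0) (h₁ (h₁.symm ((dil m hm0).symm x))) := by
      rw [LinearEquiv.apply_symm_apply, LinearEquiv.apply_symm_apply]
    generalize h₁.symm ((dil m hm0).symm x) = y at hx hxy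
    subst hxy
    rw [hx]
    have c0 : (h₁ (dil l hl0 y)) 0 = A (y 0) + X (l * y 1) := by
      rw [hh₁0, dil_zero, dil_one]
    have c1 : (h₁ (dil l hl0 y)) 1 = m * D (y 1) := by
      rw [hh₁1, dil_one, hDμ, hm]
    have x0 : (dil m hm0 (h₁ y)) 0 = A (y 0) + X (y 1) := by
      rw [dil_zero, hh₁0]
    have x1 : (dil m hm0 (h₁ y)) 1 = m * D (y 1) := by
      rw [dil_one, hh₁1]
    funext i
    fin_cases i
    · show (h₁ (dil l hl0 y)) 0
        = (dil m hm0 (h₁ y)) 0 + ν₃ ((dil m hm0 (h₁ y)) 1) * (e₁ : V 2 L) 0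
      have he10 : (e₁ : V 2 L) 0 = 1 := rfl
      rw [c0, x0, x1, hν, he10, mul_one, add_assoc, ← map_add]
      congr 2
      ring
    · show (h₁ (dil l hl0 y)) 1
        = (dil m hm0 (h₁ y)) 1 + ν₃ ((dil m hm0 (h₁ y)) 1) * (e₁ : V 2 L) 1
      have he11 : (e₁ : V 2 L) 1 = 0 := rfl
      rw [c1, x1, he11, mul_zero, add_zero]

end Cfsg.Agent.Lib.Helper71.GFZ1B
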