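import Mathlib
import Cfsg.Agent.Lib.Helper75.NDStmt

/-!
# S4890 piece CP (helper71): a `p`-regular element acting trivially on `D / ⁅D, D⁆` centralizes
the normal `p`-subgroup `D`.
-/

set_option autoImplicit false

namespace Cfsg.Agent.Lib.Helper71.NdCP

open Cfsg Cfsg.Agent.Lib.Helper75.NDStmt
open scoped commutatorElement

universe u

variable {G : Type u} [Group G]

instance lcs_normal (D : Subgroup G) [D.Normal] (n : ℕ) : (D.lowerCentralSeries n).Normal := by
  induction n with
  | zero => simpa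
  | succ d ih => rw [Subgroup.lowerCentralSeries_succ]; infer_instance

/-- one step down the lower central series -/
theorem step [Finite G] (p : ℕ) [Fact p.Prime] (D : Subgroup G) [D.Normal] (hD : IsPGroup p D)
    (x : G) (hx : ¬ p ∣ orderOf x) (j : ℕ)
    (hQ : ∀ d ∈ D, x * d * x⁻¹ * d⁻¹ ∈ D.lowerCentralSeries (j + 1)) :
    ∀ d ∈ D, x * d * x⁻¹ * d⁻¹ ∈ D.lowerCentralSeries (j + 2) := by
  have hp : p.Prime := Fact.out
  set N := D.lowerCentralSeries (j + 2) with hN
  set Γ := D.lowerCentralSeries (j + 1) with hΓ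
  have hNΓ : N = ⁅Γ, D⁆ := rfl
  have hΓD : Γ ≤ D := Subgroup.lowerCentralSeries_le_self D (j + 1)
  let π := QuotientGroup.mk' N
  -- (a) the image of `Γ` is central in the image of `D`
  have ha : ∀ n ∈ Γ, ∀ d ∈ D, π d * π n = π n * π d := by
    intro n hn d hd
    have h1 : ⁅n, d⁆ ∈ N := by
      rw [hNΓ]; exact Subgroup.commutator_mem_commutator hn hd
    have h2 : π ⁅n, d⁆ = 1 := (QuotientGroup.eq_one_iff _).mpr h1
    rw [commutatorElement_def, map_mul, map_mul, map_mul, map_inv, map_inv] at h2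
    have h3 : π n * π d = π d * π n := by
      have := congrArg (fun t => t * π d * π n) h2
      simpa [mul_assoc] using this
    exact h3.symm
  -- (b) the image of `x` centralizes the image of `Γ`
  have hb : ∀ y ∈ Γ, π x * π y = π y * π x := by
    have hle : Γ ≤ (Subgroup.centralizer ({π x} : Set (G ⧸ N))).comap π := by
      rw [hΓ, Subgroup.lowerCentralSeries_succ, Subgroup.commutator_le]
      intro a haj b hb
      have haD : a ∈ D := Subgroup.lowerCentralSeries_le_self D j haj
      rw [Subgroup.mem_comap, Subgroup.mem_centralizer_iff]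
      intro t ht
      rw [Set.mem_singleton_iff] at ht
      subst ht
      have hna := hQ a haD
      have hnb := hQ b hb
      set na := x * a * x⁻¹ * a⁻¹ with hnadef
      set nb := x * b * x⁻¹ * b⁻¹ with hnbdef
      have e1 : π x * π a * (π x)⁻¹ = π na * π a := by
        rw [hnadef]; simp only [map_mul, map_inv]; group
      have e2 : π x * π b * (π x)⁻¹ = π nb * π b := by
        rw [hnbdef]; simp only [map_mul, map_inv]; group
      have cUA := ha na hna a haD
      have cUB := ha na hna b hb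
      have cVA := ha nb hnb a haD
      have cVB := ha nb hnb b hb
      have cUV := ha na hna nb (hΓD hnb)
      -- conjugating the commutator
      have e3 : π x * π ⁅a, b⁆ * (π x)⁻¹ = π ⁅a, b⁆ := by
        rw [commutatorElement_def]
        simp only [map_mul, map_inv]
        have e4 : π x * (π a * π b * (π a)⁻¹ * (π b)⁻¹) * (π x)⁻¹ =
            (π x * π a * (π x)⁻¹) * (π x * π b * (π x)⁻¹) * (π x * π a * (π x)⁻¹)⁻¹ *
              (π x * π b * (π x)⁻¹)⁻¹ := by group
        rw [e4, e1, e2]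
        generalize π na = U at *
        generalize π nb = V at *
        generalize π a = A at *
        generalize π b = B at *
        have cUA' : Commute U A := cUA.symm
        have cUB' : Commute U B := cUB.symm
        have cVA' : Commute V A := cVA.symm
        have cVB' : Commute V B := cVB.symm
        have cUV' : Commute U V := cUV.symm
        have s1 : U * A * (V * B) * (U * A)⁻¹ * (V * B)⁻¹ =
            U * (A * V * B * A⁻¹) * U⁻¹ * B⁻¹ * V⁻¹ := by group
        have cU1 : Commute U (A * V * B * A⁻¹) :=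
          ((cUA'.mul_right cUV').mul_right cUB').mul_right cUA'.inv_right
        have s2 : U * (A * V * B * A⁻¹) * U⁻¹ = A * V * B * A⁻¹ := by
          rw [cU1.eq, mul_inv_cancel_right]
        have s3 : A * V * B * A⁻¹ * B⁻¹ * V⁻¹ = V * (A * B * A⁻¹ * B⁻¹) * V⁻¹ := by
          rw [← cVA'.eq]; group
        have cV1 : Commute V (A * B * A⁻¹ * B⁻¹) :=
          ((cVA'.mul_right cVB').mul_right cVA'.inv_right).mul_right cVB'.inv_right
        have s4 : V * (A * B * A⁻¹ * B⁻¹) * V⁻¹ = A * B * A⁻¹ * B⁻¹ := by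
          rw [cV1.eq, mul_inv_cancel_right]
        rw [s1, s2, s3, s4]
      have := congrArg (fun t => t * π x) e3
      simpa [mul_assoc] using this
    intro y hy
    have h1 := hle hy
    rw [Subgroup.mem_comap, Subgroup.mem_centralizer_iff] at h1
    exact h1 (π x) rfl
  -- (c) the coprime order argument
  intro d hd
  have hn := hQ d hd
  set n := x * d * x⁻¹ * d⁻¹ with hndef
  have e1 : π x * π d * (π x)⁻¹ = π n * π d := by
    rw [hndef]; simp only [map_mul, map_inv]; group
  have e2 : π x * π n * (π x)⁻¹ = π n := by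
    rw [hb n hn, mul_inv_cancel_right]
  have hpow : ∀ k : ℕ, (π x) ^ k * π d * ((π x) ^ k)⁻¹ = (π n) ^ k * π d := by
    intro k
    induction k with
    | zero => simp
    | succ k ih =>
      have e3 : (π x) ^ (k + 1) * π d * ((π x) ^ (k + 1))⁻¹ =
          π x * ((π x) ^ k * π d * ((π x) ^ k)⁻¹) * (π x)⁻¹ := by
        rw [pow_succ']; group
      have e4 : π x * ((π n) ^ k * π d) * (π x)⁻¹ =
          (π x * π n * (π x)⁻¹) ^ k * (π x * π d * (π x)⁻¹) := by
        rw [conj_pow]; group
      rw [e3, ih, e4, e2, e1, ← mul_assoc, ← pow_succ]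
  have h1 : (π n) ^ orderOf x = 1 := by
    have h2 := hpow (orderOf x)
    rw [← map_pow, pow_orderOf_eq_one, map_one, one_mul, inv_one, mul_one] at h2
    have h3 : (π n) ^ orderOf x * π d = 1 * π d := by rw [← h2, one_mul]
    exact mul_right_cancel h3
  obtain ⟨a, ha'⟩ := hD ⟨n, hΓD hn⟩
  have h4 : n ^ p ^ a = 1 := by
    have := congrArg Subtype.val ha'
    simpa using this
  have h5 : (π n) ^ p ^ a = 1 := by rw [← map_pow, h4, map_one]
  have h6 : orderOf (π n) ∣ orderOf x := orderOf_dvd_of_pow_eq_one h1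
  have h7 : orderOf (π n) ∣ p ^ a := orderOf_dvd_of_pow_eq_one h5
  have hcop : Nat.Coprime (orderOf x) (p ^ a) :=
    Nat.Coprime.pow_right a ((Nat.Prime.coprime_iff_not_dvd hp).mpr hx).symm
  have h8 : orderOf (π n) = 1 := Nat.eq_one_of_dvd_coprimes hcop h6 h7
  have h9 : π n = 1 := orderOf_eq_one_iff.mp h8
  exact (QuotientGroup.eq_one_iff _).mp h9

/-- [CP] -/
theorem main : CP.{u} := by
  intro G _ _ p _ D _ hD x hx hreg
  have hreg' : ¬ p ∣ orderOf x := hreg
  have hbase : ∀ d ∈ D, x * d * x⁻¹ * d⁻¹ ∈ D.lowerCentralSeries (0 + 1) := by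
    intro d hd
    have h1 : QuotientGroup.mk' ⁅D, D⁆ x ∈ Cbar D := hx
    rw [Subgroup.mem_centralizer_iff] at h1
    have h2 := h1 (QuotientGroup.mk' ⁅D, D⁆ d) ⟨d, hd, rfl⟩
    show x * d * x⁻¹ * d⁻¹ ∈ ⁅D, D⁆
    rw [← QuotientGroup.eq_one_iff (N := ⁅D, D⁆)]
    have h3 : ((x * d * x⁻¹ * d⁻¹ : G) : G ⧸ ⁅D, D⁆) =
        QuotientGroup.mk' ⁅D, D⁆ x * QuotientGroup.mk' ⁅D, D⁆ d *
          (QuotientGroup.mk' ⁅D, D⁆ x)⁻¹ * (QuotientGroup.mk' ⁅D, D⁆ d)⁻¹ := by
      simp
    rw [h3, ← h2]
    group
  have hall : ∀ j : ℕ, ∀ d ∈ D, x * d * x⁻¹ * d⁻¹ ∈ D.lowerCentralSeries (j + 1) := by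
    intro j
    induction j with
    | zero => exact hbase
    | succ j ih => exact step p D hD x hreg' j ih
  have hnil : Group.IsNilpotent D := hD.isNilpotent
  obtain ⟨c, hc⟩ := (Subgroup.isNilpotent_iff_lowerCentralSeries D).mp hnil
  rw [Subgroup.mem_centralizer_iff]
  intro d hd
  have h1 := hall c d hd
  have h2 : D.lowerCentralSeries (c + 1) ≤ D.lowerCentralSeries c :=
    Subgroup.lowerCentralSeries_antitone D (Nat.le_succ c)
  have h3 := h2 h1
  rw [hc, Subgroup.mem_bot] at h3
  have h4 := congrArg (fun t => t * d * x) h3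
  simpa [mul_assoc] using h4.symm

end Cfsg.Agent.Lib.Helper71.NdCP
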