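import Mathlib
import Cfsg.Agent.Lib.Helper75.NDStmt

/-!
# S4890 piece NILB (helper71): if the `p`-regular elements stabilizing `e'` centralize `D ≥ Q`,
and `x c` stabilizes `e'` with `x ∈ N_G(Q)` `p`-regular and `c ∈ C_G(Q)`, then `x ∈ C_G(Q)`.
Also: `StabilizesBlock` is closed under products and natural powers.
-/

set_option autoImplicit false

namespace Cfsg.Agent.Lib.Helper71.NdNILB

open Cfsg Cfsg.Agent.Lib.Helper75.NDStmt

universe u

variable {G : Type u} [Group G]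

theorem stab_one (K : Subgroup G) (e : Set (IrrCharacter K)) : StabilizesBlock K e 1 := by
  refine ⟨Subgroup.one_mem _, fun χ hχ => ⟨χ, hχ, ?_⟩⟩
  intro k k' h
  have : k' = k := Subtype.ext (by rw [h]; group)
  rw [this]

theorem stab_mul (K : Subgroup G) (e : Set (IrrCharacter K)) {g h : G}
    (hg : StabilizesBlock K e g) (hh : StabilizesBlock K e h) : StabilizesBlock K e (g * h) := by
  refine ⟨Subgroup.mul_mem _ hg.1 hh.1, fun χ hχ => ?_⟩
  obtain ⟨χ₁, hχ₁, h1⟩ := hh.2 χ hχ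
  obtain ⟨χ₂, hχ₂, h2⟩ := hg.2 χ₁ hχ₁
  refine ⟨χ₂, hχ₂, ?_⟩
  intro k k' hk
  have hmem : h * (k : G) * h⁻¹ ∈ K := (Subgroup.mem_normalizer_iff.mp hh.1 (k : G)).mp k.2
  have e1 := h1 k ⟨h * (k : G) * h⁻¹, hmem⟩ rfl
  have e2 := h2 ⟨h * (k : G) * h⁻¹, hmem⟩ k' (by rw [hk]; group)
  rw [e2, e1]

theorem stab_pow (K : Subgroup G) (e : Set (IrrCharacter K)) {g : G}
    (hg : StabilizesBlock K e g) (n : ℕ) : StabilizesBlock K e (g ^ n) := by
  induction n with
  | zero => rw [pow_zero]; exact stab_one K e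
  | succ n ih => rw [pow_succ]; exact stab_mul K e ih hg

/-- [NILB] -/
theorem main : NILB.{u} := by
  intro G _ _ p _ D Q hQD e' hcent x c hx hc hxreg hstab
  have hp : p.Prime := Fact.out
  have hxreg' : ¬ p ∣ orderOf x := hxreg
  set y := x * c with hy
  have hn0 : orderOf y ≠ 0 := (orderOf_pos y).ne'
  obtain ⟨a, r, hr, hyr⟩ := Nat.exists_eq_pow_mul_and_not_dvd hn0 p hp.ne_one
  -- `z = y ^ (p ^ a)` is `p`-regular and stabilizes `e'`
  have hzreg : IsPRegular p (y ^ p ^ a) := by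
    intro hdvd
    apply hr
    have h1 : (y ^ p ^ a) ^ r = 1 := by
      rw [← pow_mul, ← hyr, pow_orderOf_eq_one]
    exact hdvd.trans (orderOf_dvd_of_pow_eq_one h1)
  have hzD : y ^ p ^ a ∈ Subgroup.centralizer (D : Set G) :=
    hcent _ (stab_pow _ e' hstab (p ^ a)) hzreg
  have hzQ : y ^ p ^ a ∈ Subgroup.centralizer (Q : Set G) :=
    Subgroup.centralizer_le (by exact_mod_cast hQD) hzD
  -- powers of `y` and of `x` act in the same way on `Q`
  have hxn : ∀ n : ℕ, ∀ q ∈ Q, x ^ n * q * (x ^ n)⁻¹ ∈ Q := by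
    intro n q hq
    have : x ^ n ∈ Subgroup.normalizer (Q : Set G) := Subgroup.pow_mem _ hx n
    exact (Subgroup.mem_normalizer_iff.mp this q).mp hq
  have hpow : ∀ n : ℕ, ∀ q ∈ Q, y ^ n * q * (y ^ n)⁻¹ = x ^ n * q * (x ^ n)⁻¹ := by
    intro n
    induction n with
    | zero => intro q _; simp
    | succ n ih =>
      intro q hq
      have hq' := hxn n q hq
      have hcq : c * (x ^ n * q * (x ^ n)⁻¹) * c⁻¹ = x ^ n * q * (x ^ n)⁻¹ := by
        have := (Subgroup.mem_centralizer_iff.mp hc) _ hq'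
        rw [← this, mul_inv_cancel_right]
      have e1 : y ^ (n + 1) * q * (y ^ (n + 1))⁻¹ = y * (y ^ n * q * (y ^ n)⁻¹) * y⁻¹ := by
        rw [pow_succ']; group
      have e2 : y * (x ^ n * q * (x ^ n)⁻¹) * y⁻¹ =
          x * (c * (x ^ n * q * (x ^ n)⁻¹) * c⁻¹) * x⁻¹ := by
        rw [hy]; group
      rw [e1, ih q hq, e2, hcq, pow_succ']
      group
  -- `x ^ (p ^ a)` centralizes `Q`
  have hw : x ^ p ^ a ∈ Subgroup.centralizer (Q : Set G) := by
    rw [Subgroup.mem_centralizer_iff]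
    intro q hq
    have h1 := hpow (p ^ a) q hq
    have h2 : y ^ p ^ a * q * (y ^ p ^ a)⁻¹ = q := by
      have := (Subgroup.mem_centralizer_iff.mp hzQ) q hq
      rw [← this, mul_inv_cancel_right]
    rw [h2] at h1
    have := congrArg (fun t => t * x ^ p ^ a) h1
    simpa [mul_assoc] using this
  -- `x` is a power of `x ^ (p ^ a)`
  have hcop : (p ^ a).Coprime (orderOf x) :=
    Nat.Coprime.pow_left a ((Nat.Prime.coprime_iff_not_dvd hp).mpr hxreg')
  obtain ⟨m, hm⟩ := exists_pow_eq_self_of_coprime hcop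
  rw [← hm]
  exact Subgroup.pow_mem _ hw m

end Cfsg.Agent.Lib.Helper71.NdNILB
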