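import Mathlib
import Cfsg.Agent.Lib.Helper87.PCStmt
import Cfsg.Agent.Lib.Helper87.WNINV

/-!
# S5243 piece HCONJ (helper71): the family `famH F E` is closed under `F`-conjugacy.
-/

set_option autoImplicit false

namespace Cfsg.Agent.Lib.Helper71.PCHCONJ

open Cfsg Cfsg.FusionSystem Cfsg.Agent.H85 Cfsg.Agent.Lib.Helper87.PCStmt

universe u

/-- [HCONJ] -/
theorem main : HConj.{u} := by
  intro Ω _ S T _ p _ F E K c P Q hP hconj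
  obtain ⟨hPc, hPT⟩ := hP
  refine ⟨isCentric_of_isConj F hPc hconj, ?_⟩
  obtain ⟨φ, hφ, rfl⟩ := hconj
  have hT := c.hT
  -- the restriction of φ to P ⊓ T
  have hNP : P ⊓ T ≤ P := inf_le_left
  have hφN : φ.comp (Subgroup.inclusion hNP) ∈ F.Hom (P ⊓ T) := restrict_mem F hφ hNP
  have hmem : ∀ x : (P ⊓ T : Subgroup Ω),
      (φ.comp (Subgroup.inclusion hNP)) x ∈ φ.range ⊓ T := by
    intro x
    exact ⟨⟨_, rfl⟩, hT.2 (P ⊓ T) inf_le_right _ hφN x⟩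
  have hsurj : ∀ y ∈ φ.range ⊓ T, ∃ x : (P ⊓ T : Subgroup Ω),
      (φ.comp (Subgroup.inclusion hNP)) x = y := by
    rintro y ⟨⟨x, rfl⟩, hyT⟩
    obtain ⟨ψ', hψ', hψ'x⟩ := inv_mem' F hφ (inf_le_left : φ.range ⊓ T ≤ φ.range)
    have hxT : (x : Ω) ∈ T := by
      have h1 := hT.2 (φ.range ⊓ T) inf_le_right ψ' hψ' ⟨φ x, ⟨⟨x, rfl⟩, hyT⟩⟩
      rw [hψ'x x ⟨⟨x, rfl⟩, hyT⟩] at h1
      exact h1
    exact ⟨⟨x, ⟨x.2, hxT⟩⟩, rfl⟩
  refine ⟨inf_le_right, ?_⟩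
  rintro R ⟨χ, hχ, rfl⟩
  have hχF : χ ∈ F.Hom (φ.range ⊓ T) := c.hEF _ hχ
  have hcomp := F.comp_mem hφN hχF hmem
  have hfc := Cfsg.Agent.Lib.Helper87.WNINV.fcen F E c.hEinv hPT hcomp
  have hrange : (χ.comp ((φ.comp (Subgroup.inclusion hNP)).codRestrict
      (φ.range ⊓ T) hmem)).range = χ.range := by
    ext z
    constructor
    · rintro ⟨x, rfl⟩
      exact ⟨_, rfl⟩
    · rintro ⟨y, rfl⟩
      obtain ⟨x, hx⟩ := hsurj y y.2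
      refine ⟨x, ?_⟩
      show χ ⟨(φ.comp (Subgroup.inclusion hNP)) x, _⟩ = χ y
      congr 1
      exact Subtype.ext hx
  rw [hrange] at hfc
  exact hfc

end Cfsg.Agent.Lib.Helper71.PCHCONJ
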