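import Mathlib
import Cfsg.Agent.Lib.Helper87.PCStmt

/-!
# S5243 piece PROPER (helper71): if `K ≠ Aut_F(T)` then `D ≠ F`.
-/

set_option autoImplicit false

namespace Cfsg.Agent.Lib.Helper71.PCPROPER

open Cfsg Cfsg.FusionSystem Cfsg.Agent.H85 Cfsg.Agent.Lib.Helper87.PCStmt

universe u

/-- [PROPER] -/
theorem main : Proper.{u} := by
  intro Ω _ S T _ p _ F E K c hex hDF
  obtain ⟨β, hβ, hβK⟩ := hex
  apply hβK
  have h1 : T.subtype.comp β.toMonoidHom ∈ F.Hom T := (mem_autGroup_iff F c.hTS β).mp hβ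
  rw [← hDF T] at h1
  have h2 := c.D_le_B T h1
  have h3 := ((c.mem_B_iff _).mp h2).2 T le_rfl le_rfl
  obtain ⟨α, hα, φ₀, hφ₀, hφα⟩ := h3
  have hT := (E.le_of_mem hφ₀).2
  have he : T.subtype.comp (α⁻¹ * β).toMonoidHom ∈ E.Hom T := by
    refine hom_congr E hφ₀ (fun x => ?_)
    show ((α⁻¹ (β x) : T) : Ω) = φ₀ x
    have hx := hφα x (hT x)
    have hx' : β x = α ⟨φ₀ x, hT x⟩ := Subtype.ext hx
    rw [hx', MulAut.inv_apply_self]
  have he' : α⁻¹ * β ∈ E.autGroup T := (mem_autGroup_iff E le_rfl _).mpr he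
  have hβeq : β = α * (α⁻¹ * β) := by group
  rw [hβeq]
  exact K.mul_mem hα (c.hEK he')

end Cfsg.Agent.Lib.Helper71.PCPROPER
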